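import Cfsg.Agent.Lib.H04.Tf.NF
import Cfsg.Agent.Lib.H04.Tw.BNT

/-!
# The (B, N)-pair of the groups `²F₄`
-/

set_option autoImplicit false
set_option linter.style.longLine false
set_option linter.unusedSimpArgs false
set_option linter.unusedSectionVars false
set_option linter.unusedVariables false
set_option maxRecDepth 100000
set_option synthInstance.maxHeartbeats 0
set_option synthInstance.maxSize 100000

open Cfsg.Lie Cfsg.Agent.H04.Chev Cfsg.Agent.H04.Tw
open Cfsg.Agent.H04.Chev.TF4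

namespace Cfsg.Agent.H04.Tf.TF4

theorem J_inv : ∀ j, j < 2 → ∀ r, r < 48 → applyW chevF4 T (Js j) (applyW chevF4 T (Js j) r) = r := by decide +kernel
theorem J_sep : ∃ r, r < 48 ∧ applyW chevF4 T (Js 0) r ≠ applyW chevF4 T (Js 1) r := by decide +kernel
theorem J_sub : ∀ j, j < 2 → ∀ v ∈ (Js j).sublists, (∀ r, r < 48 → applyW chevF4 T v r = r) ∨ (∀ r, r < 48 → applyW chevF4 T v r = applyW chevF4 T (Js j) r) ∨
    ∃ r, r < 48 ∧ applyW chevF4 T v (X.bar r) ≠ X.bar (applyW chevF4 T v r) := by decide +kernel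
theorem J_neg0 : (applyW chevF4 T (Js 0) 33 < 24 ∧ applyW chevF4 T (Js 0) 24 < 24) := by decide +kernel
theorem J_neg1 : (applyW chevF4 T (Js 1) 27 < 24 ∧ applyW chevF4 T (Js 1) 25 < 24 ∧ applyW chevF4 T (Js 1) 28 < 24 ∧ applyW chevF4 T (Js 1) 30 < 24) := by decide +kernel

section
variable {K : Type*} [Field K] [Fintype K] [CharP K 2] {m : ℕ}

lemma sq_J {j : ℕ} (hj : j < 2) : nWordG checks K (Js j) * nWordG checks K (Js j) ∈ chevF4.diagonalSubgroup K := by
  have hlt := Js_lt j hj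
  obtain ⟨ρ', d₁, a⟩ := NAct_word (F := K) checks hlt
  have hm := nWordG_mem checks checks3 hlt (F := K)
  apply mem_H_of_pos checks checks2 checks3 (mul_mem hm hm) (a.mul a)
  intro r h1 h2
  simp only [Function.comp]
  rw [J_inv j hj r h2]
  exact h1

lemma nJ_inj {j j' : ℕ} (hj : j < 2) (hj' : j' < 2)
    (hb : (nWordG checks K (Js j))⁻¹ * nWordG checks K (Js j') ∈ chevF4.borelSubgroup K) : j = j' := by
  have hlt := Js_lt j hj
  have hlt' := Js_lt j' hj'
  have hm := nWordG_mem checks checks3 hlt (F := K)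
  have hm' := nWordG_mem checks checks3 hlt' (F := K)
  have hH : (nWordG checks K (Js j))⁻¹ * nWordG checks K (Js j') ∈ chevF4.diagonalSubgroup K := by
    rw [← borel_inf_monomial checks checks2 checks3]
    exact Subgroup.mem_inf.mpr ⟨hb, mul_mem (inv_mem hm) hm'⟩
  by_contra hne
  have hsep : ∃ r, r < chevF4.nroots ∧ applyW chevF4 T (Js j) r ≠ applyW chevF4 T (Js j') r := by
    obtain ⟨r, h1, h2⟩ := J_sep
    refine ⟨r, h1, ?_⟩
    have hc : (j = 0 ∧ j' = 1) ∨ (j = 1 ∧ j' = 0) := by omega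
    rcases hc with ⟨rfl, rfl⟩ | ⟨rfl, rfl⟩
    · exact h2
    · exact h2.symm
  obtain ⟨r, hr, hr'⟩ := hsep
  obtain ⟨ρ', d₁, a⟩ := NAct_word (F := K) checks hlt
  obtain ⟨ρ'', d₂, a'⟩ := NAct_word (F := K) checks hlt'
  rw [diagonal_eq checks checks3] at hH
  obtain ⟨c, hc⟩ := mem_HT.mp hH
  have a₁ : NAct checks (hProd U chevF4 c) id id _ := NAct_torus (F := K) checks checks3 (capply chevF4 c)
  have a₂ := a.mul a₁
  have en : nWordG checks K (Js j) * hProd U chevF4 c = nWordG checks K (Js j') := by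
    rw [← hc]
    group
  rw [en] at a₂
  exact hr' (NAct.perm_unique a₂ a' hr)

variable (hK : Fintype.card K = 2 ^ (2 * m + 1))
include hK

/-- the key condition for the pair -/
theorem mul_union_aux {j : ℕ} (hj : j < 2) {b n : GL chevF4.Idx K} (hb : b ∈ chevF4.borelSubgroup K) (hsb : (Sg K m).f b = b)
    (hn : n ∈ chevF4.monomialSubgroup K) (hsn : (Sg K m).f n = n) :
    (∃ b₁ ∈ chevF4.borelSubgroup K ⊓ SF.Fx (Sg K m), ∃ b₂ ∈ chevF4.borelSubgroup K ⊓ SF.Fx (Sg K m), nWordG checks K (Js j) * b * n = b₁ * (nWordG checks K (Js j) * n) * b₂) ∨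
    (∃ b₁ ∈ chevF4.borelSubgroup K ⊓ SF.Fx (Sg K m), ∃ b₂ ∈ chevF4.borelSubgroup K ⊓ SF.Fx (Sg K m), nWordG checks K (Js j) * b * n = b₁ * n * b₂) := by
  have hlt := Js_lt j hj
  have hsN := nWordG_mem checks checks3 hlt (F := K)
  have hss := nJ_fix (j := j) hK
  have gs := N_le_group checks hsN
  have gb := B_le_group checks hb
  have gn := N_le_group checks hn
  have hgG : nWordG checks K (Js j) * b * n ∈ chevF4.group K := mul_mem (mul_mem gs gb) gn
  have hgs : (Sg K m).f (nWordG checks K (Js j) * b * n) = nWordG checks K (Js j) * b * n := by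
    rw [(Sg K m).f_mul (mul_mem gs gb) gn, (Sg K m).f_mul gs gb, hss, hsb, hsn]
  obtain ⟨u₁, h1, h2, n', h3, h4, π', π'', e', ha', u₂, h5, h6, e0⟩ := fix_bruhat' checks checks2 checks3 (Sg K m) (sftS m) hgG hgs
  obtain ⟨v, hv, b₃, hb₃, b₄, hb₄, e1⟩ := dc_word (K := K) checks checks2 checks3 hlt hb hn
  have hvl : ∀ i ∈ v, i < chevF4.rank := fun i hi => hlt i (hv.subset hi)
  have hnv : nWordG checks K v * n ∈ chevF4.monomialSubgroup K := mul_mem (nWordG_mem checks checks3 hvl) hn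
  have hu2 := RS_Rminus_le_B (K := K) checks checks2 checks3 h5
  have hH := dc_unique checks checks2 checks3 hb₃ (U_le_B h1) hnv h3 hb₄ hu2 (e1.symm.trans e0)
  -- permutations
  obtain ⟨ρ', d₁, av⟩ := NAct_word (F := K) checks hvl
  obtain ⟨w, _, π, ρ'', d₂, an, _⟩ := monomial_le_NW checks checks3 hn
  rw [diagonal_eq checks checks3] at hH
  obtain ⟨c, hc⟩ := mem_HT.mp hH
  have a₁ : NAct checks (hProd U chevF4 c) id id _ := NAct_torus (F := K) checks checks3 (capply chevF4 c)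
  have a₂ := (av.mul an).mul a₁
  have en' : n' = (nWordG checks K v * n) * hProd U chevF4 c := by
    rw [← hc]
    group
  rw [← en'] at a₂
  have hπ' : ∀ s, s < chevF4.nroots → π' s = applyW chevF4 T v (π s) := fun s hs => NAct.perm_unique ha' a₂ hs
  have hc1 : ∀ s, s < chevF4.nroots → π (X.bar s) = X.bar (π s) := fun s hs =>
    perm_comm' checks checks2 checks3 (Sg K m) (sftS m) gn an (by rw [hsn, mul_inv_cancel]; exact one_mem _) hs
  have hc2 : ∀ s, s < chevF4.nroots → π' (X.bar s) = X.bar (π' s) := fun s hs =>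
    perm_comm' checks checks2 checks3 (Sg K m) (sftS m) (N_le_group checks h3) ha' (by rw [h4, mul_inv_cancel]; exact one_mem _) hs
  have hcv : ∀ r, r < chevF4.nroots → applyW chevF4 T v (X.bar r) = X.bar (applyW chevF4 T v r) := by
    intro r hr
    have hs := an.lt' r hr
    have hb' := (sftS (K := K) m).lt _ hs
    have e2 := an.right r hr
    have hb'' : X.bar (ρ'' r) < chevF4.nroots := hb'
    have e3 := hπ' _ hb''
    have e4 := hπ' _ hs
    rw [hc1 _ hs, e2] at e3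
    rw [e2] at e4
    rw [← e3, hc2 _ hs, e4]
  have hsv : nWordG checks K v = 1 ∨ nWordG checks K v = nWordG checks K (Js j) := by
    rcases J_sub j hj v (List.mem_sublists.mpr hv) with h7 | h7 | ⟨r, hr1, hr2⟩
    · exact Or.inl (nWordG_eq_one checks checks2 checks3 hvl h7)
    · exact Or.inr (nWordG_congr checks checks2 checks3 hvl hlt h7)
    · exact absurd (hcv r hr1) hr2
  have gH : hProd U chevF4 c ∈ chevF4.group K := by
    apply H_le_group checks
    rw [diagonal_eq checks checks3]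
    exact mem_HT.mpr ⟨c, rfl⟩
  have hfix : (Sg K m).f (hProd U chevF4 c) = hProd U chevF4 c := by
    have e2 : hProd U chevF4 c = (nWordG checks K v * n)⁻¹ * n' := by
      rw [en']
      group
    have gv : nWordG checks K v * n ∈ chevF4.group K := N_le_group checks hnv
    have gn' := N_le_group checks h3
    have hfv : (Sg K m).f (nWordG checks K v * n) = nWordG checks K v * n := by
      rw [(Sg K m).f_mul (N_le_group checks (nWordG_mem checks checks3 hvl)) gn, hsn]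
      rcases hsv with h7 | h7
      · rw [h7, SF.f_one]
      · rw [h7, hss]
    rw [e2, (Sg K m).f_mul (inv_mem gv) gn', SF.f_inv _ gv, hfv, h4]
  have hHB : hProd U chevF4 c ∈ chevF4.borelSubgroup K := by
    apply H_le_B
    rw [diagonal_eq checks checks3]
    exact mem_HT.mpr ⟨c, rfl⟩
  have gu2 := B_le_group checks hu2
  have hfx : (Sg K m).f (hProd U chevF4 c * u₂) = hProd U chevF4 c * u₂ := by rw [(Sg K m).f_mul gH gu2, hfix, h6]
  have hm1 : u₁ ∈ chevF4.borelSubgroup K ⊓ SF.Fx (Sg K m) := Subgroup.mem_inf.mpr ⟨U_le_B h1, U_le_group checks h1, h2⟩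
  have hm2 : hProd U chevF4 c * u₂ ∈ chevF4.borelSubgroup K ⊓ SF.Fx (Sg K m) := Subgroup.mem_inf.mpr ⟨mul_mem hHB hu2, mul_mem gH gu2, hfx⟩
  rcases hsv with h7 | h7
  · right
    refine ⟨u₁, hm1, hProd U chevF4 c * u₂, hm2, ?_⟩
    rw [e0, en', h7]
    group
  · left
    refine ⟨u₁, hm1, hProd U chevF4 c * u₂, hm2, ?_⟩
    rw [e0, en', h7]
    group

lemma mem_GS_iff {g : GL chevF4.Idx K} : g ∈ GS K m ↔ (Sg K m).f g = g ∧ g ∈ chevF4.group K := by
  rw [GS_eq hK]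
  exact ⟨fun h => ⟨h.2, h.1⟩, fun h => ⟨h.2, h.1⟩⟩

lemma borel_fix_le {g : GL chevF4.Idx K} (hg : g ∈ chevF4.borelSubgroup K ⊓ SF.Fx (Sg K m)) : g ∈ GS K m := by
  rw [GS_eq hK]
  exact hg.2

omit hK in
/-- the element for the first orbit -/
noncomputable def xJ (K : Type*) [Field K] [Fintype K] [CharP K 2] (m : ℕ) : ℕ → GL chevF4.Idx K
  | 0 => Ep checks (th K m) 33 24 1
  | _ => Eq checks (th K m) (th' K m) 27 25 28 30 1 0

omit hK in
lemma xJ_GS (j : ℕ) : xJ K m j ∈ GS K m := by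
  cases j with
  | zero => exact E7 1
  | succ j => exact E0 1 0

omit hK in
lemma xJ_RS {j : ℕ} (hj : j < 2) : xJ K m j ∈ RS checks (Rminus chevF4 (applyW chevF4 T (Js j))) K := by
  have hc : j = 0 ∨ j = 1 := by omega
  rcases hc with rfl | rfl
  · exact mul_mem (xG_mem_RS checks (by decide) ⟨by decide, J_neg0.1⟩ _) (xG_mem_RS checks (by decide) ⟨by decide, J_neg0.2⟩ _)
  · obtain ⟨h1, h2, h3, h4⟩ := J_neg1
    exact mul_mem (mul_mem (mul_mem (xG_mem_RS checks (by decide) ⟨by decide, h1⟩ _) (xG_mem_RS checks (by decide) ⟨by decide, h2⟩ _))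
      (xG_mem_RS checks (by decide) ⟨by decide, h3⟩ _)) (xG_mem_RS checks (by decide) ⟨by decide, h4⟩ _)

omit hK in
lemma xJ_U {j : ℕ} (hj : j < 2) : xJ K m j ∈ chevF4.borelSubgroup K :=
  RS_Rminus_le_B checks checks2 checks3 (xJ_RS hj)

lemma xJ_ne {j : ℕ} (hj : j < 2) : xJ K m j ≠ 1 := by
  have hc : j = 0 ∨ j = 1 := by omega
  rcases hc with rfl | rfl
  · intro h1
    have e0 : Ep checks (th K m) 33 24 (1 : K) * 1 = Ep checks (th K m) 33 24 0 * 1 := by
      rw [mul_one, mul_one, show Ep checks (th K m) 33 24 (1 : K) = 1 from h1]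
      simp [Ep, xG_zero]
    obtain ⟨h3, _⟩ := pair_unique checks checks2 checks3 clw (i := 22) (by decide) (PairH_of (m := m) pt7) rfl rfl (one_mem _) (one_mem _) e0
    exact one_ne_zero h3
  · intro h1
    have h1' : QP checks 27 25 28 30 (th K m (1 : K)) (1 : K) (th K m 1 * 1 + 0) (th' K m 0) = 1 := h1
    have e0 : QP checks 27 25 28 30 (th K m (1 : K)) (1 : K) (th K m 1 * 1 + 0) (th' K m 0) * 1 = QP checks 27 25 28 30 0 0 0 0 * 1 := by
      calc _ = (1 : GL chevF4.Idx K) := by rw [h1', mul_one]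
        _ = _ := by simp [QP, xG_zero]
    obtain ⟨_, h3, _⟩ := QP_unique checks checks2 checks3 clw (i := 0) (by decide) (QuadH_of (m := m) qt0) rfl rfl rfl rfl (one_mem _) (one_mem _) e0
    exact one_ne_zero h3

/-- the pair `(B, N)` -/
noncomputable def bnF : Cfsg.BNPair ↥(GS K m) where
  B := (chevF4.borelSubgroup K ⊓ GS K m).subgroupOf (GS K m)
  N := (chevF4.monomialSubgroup K ⊓ GS K m).subgroupOf (GS K m)
  S := Cfsg.Agent.H04.Tw.SJ checks K 2 Js (GS K m)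
  sup_eq_top := by
    rw [eq_top_iff]
    rintro ⟨g, hg⟩ _
    obtain ⟨hg1, hg2⟩ := (mem_GS_iff hK).mp hg
    obtain ⟨u₁, h1, h2, n, h3, h4, π, π', e, ha, u₂, h5, h6, e0⟩ := fix_bruhat' checks checks2 checks3 (Sg K m) (sftS m) hg2 hg1
    have hu2 := RS_le_B' checks checks2 (fun r hr => hr.1) h5
    have m1 : u₁ ∈ GS K m := (mem_GS_iff hK).mpr ⟨h2, U_le_group checks h1⟩
    have m2 : n ∈ GS K m := (mem_GS_iff hK).mpr ⟨h4, N_le_group checks h3⟩
    have m3 : u₂ ∈ GS K m := (mem_GS_iff hK).mpr ⟨h6, U_le_group checks hu2⟩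
    have e1 : (⟨g, hg⟩ : ↥(GS K m)) = ⟨u₁, m1⟩ * ⟨n, m2⟩ * ⟨u₂, m3⟩ := Subtype.ext e0
    rw [e1]
    refine mul_mem (mul_mem (Subgroup.mem_sup_left ?_) (Subgroup.mem_sup_right ?_)) (Subgroup.mem_sup_left ?_)
    · rw [Subgroup.mem_subgroupOf]
      exact Subgroup.mem_inf.mpr ⟨U_le_B h1, m1⟩
    · rw [Subgroup.mem_subgroupOf]
      exact Subgroup.mem_inf.mpr ⟨h3, m2⟩
    · rw [Subgroup.mem_subgroupOf]
      exact Subgroup.mem_inf.mpr ⟨U_le_B hu2, m3⟩
  conj_mem := by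
    rintro ⟨n, hn⟩ hn' ⟨t, ht⟩ ht'
    obtain ⟨h1, h2⟩ := Subgroup.mem_inf.mp ht'
    rw [Subgroup.mem_subgroupOf] at h1 h2 hn' ⊢
    have h3 : t ∈ chevF4.diagonalSubgroup K := by
      rw [← borel_inf_monomial checks checks2 checks3]
      exact Subgroup.mem_inf.mpr ⟨(Subgroup.mem_inf.mp h1).1, (Subgroup.mem_inf.mp h2).1⟩
    exact Subgroup.mem_inf.mpr ⟨H_le_B (N_conj_H checks checks3 (Subgroup.mem_inf.mp hn').1 h3), mul_mem (mul_mem hn ht) (inv_mem hn)⟩
  subset := by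
    rintro ⟨s, hs'⟩ ⟨j, hj, hs⟩
    rw [SetLike.mem_coe, Subgroup.mem_subgroupOf]
    simp only at hs
    subst hs
    exact Subgroup.mem_inf.mpr ⟨nWordG_mem checks checks3 (Js_lt j hj), hs'⟩
  sq_mem := by
    rintro ⟨s, hs'⟩ ⟨j, hj, hs⟩
    rw [Subgroup.mem_subgroupOf]
    simp only at hs
    subst hs
    exact Subgroup.mem_inf.mpr ⟨H_le_B (sq_J hj), mul_mem hs' hs'⟩
  inj := by
    rintro ⟨s, hs'⟩ ⟨j, hj, hs⟩ ⟨s₂, hs₂'⟩ ⟨j₂, hj₂, hs₂⟩ hb
    rw [Subgroup.mem_subgroupOf] at hb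
    simp only at hs hs₂
    subst hs
    subst hs₂
    have := nJ_inj hj hj₂ (Subgroup.mem_inf.mp hb).1
    subst this
    rfl
  closure_sup := by
    apply le_antisymm
    · refine sup_le ?_ inf_le_right
      rw [Subgroup.closure_le]
      rintro ⟨s, hs'⟩ ⟨j, hj, hs⟩
      rw [SetLike.mem_coe, Subgroup.mem_subgroupOf]
      simp only at hs
      subst hs
      exact Subgroup.mem_inf.mpr ⟨nWordG_mem checks checks3 (Js_lt j hj), hs'⟩
    · rintro ⟨x, hxG⟩ hx
      rw [Subgroup.mem_subgroupOf] at hx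
      set Z := Subgroup.closure (Cfsg.Agent.H04.Tw.SJ checks K 2 Js (GS K m)) ⊔ ((chevF4.borelSubgroup K ⊓ GS K m).subgroupOf (GS K m) ⊓ (chevF4.monomialSubgroup K ⊓ GS K m).subgroupOf (GS K m)) with hZ
      have hle : x ∈ Z.map (GS K m).subtype := by
        apply N_fix_ind hK (Z.map (GS K m).subtype)
        · intro j hj
          have hm : nWordG checks K (Js j) ∈ GS K m := nJ_GS hK
          exact ⟨⟨_, hm⟩, Subgroup.mem_sup_left (Subgroup.subset_closure ⟨j, hj, rfl⟩), rfl⟩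
        · intro g hg
          obtain ⟨hg1, hg2⟩ := Subgroup.mem_inf.mp hg
          have hm : g ∈ GS K m := borel_fix_le hK (Subgroup.mem_inf.mpr ⟨H_le_B hg1, hg2⟩)
          refine ⟨⟨g, hm⟩, Subgroup.mem_sup_right (Subgroup.mem_inf.mpr ⟨?_, ?_⟩), rfl⟩
          · rw [Subgroup.mem_subgroupOf]
            exact Subgroup.mem_inf.mpr ⟨H_le_B hg1, hm⟩
          · rw [Subgroup.mem_subgroupOf]
            exact Subgroup.mem_inf.mpr ⟨H_le_monomial hg1, hm⟩
        · exact (Subgroup.mem_inf.mp hx).1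
        · exact ((mem_GS_iff hK).mp hxG).1
      obtain ⟨y, hy, hyx⟩ := hle
      have : y = ⟨x, hxG⟩ := Subtype.ext hyx
      rw [← this]
      exact hy
  mul_mem_union := by
    rintro ⟨s, hs'⟩ ⟨j, hj, hs⟩ ⟨n, hn'⟩ hn ⟨b, hb'⟩ hb
    rw [Subgroup.mem_subgroupOf] at hn hb
    simp only at hs
    subst hs
    have hsb : (Sg K m).f b = b := ((mem_GS_iff hK).mp hb').1
    have hsn : (Sg K m).f n = n := ((mem_GS_iff hK).mp hn').1
    have conv : ∀ (x x' b₁ b₂ : ↥(GS K m)), (x : GL chevF4.Idx K) = b₁ * x' * b₂ → (b₁ : GL chevF4.Idx K) ∈ chevF4.borelSubgroup K → (b₂ : GL chevF4.Idx K) ∈ chevF4.borelSubgroup K →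
        x ∈ DoubleCoset.doubleCoset x' (((chevF4.borelSubgroup K ⊓ GS K m).subgroupOf (GS K m) : Subgroup ↥(GS K m)) : Set ↥(GS K m)) ((chevF4.borelSubgroup K ⊓ GS K m).subgroupOf (GS K m)) := by
      intro x x' b₁ b₂ e h1 h2
      rw [DoubleCoset.mem_doubleCoset]
      refine ⟨b₁, ?_, b₂, ?_, Subtype.ext e⟩
      · rw [SetLike.mem_coe, Subgroup.mem_subgroupOf]
        exact Subgroup.mem_inf.mpr ⟨h1, b₁.2⟩
      · rw [SetLike.mem_coe, Subgroup.mem_subgroupOf]
        exact Subgroup.mem_inf.mpr ⟨h2, b₂.2⟩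
    rcases mul_union_aux hK hj (Subgroup.mem_inf.mp hb).1 hsb (Subgroup.mem_inf.mp hn).1 hsn with ⟨b₁, hb₁, b₂, hb₂, e⟩ | ⟨b₁, hb₁, b₂, hb₂, e⟩
    · left
      exact conv _ _ ⟨b₁, borel_fix_le hK hb₁⟩ ⟨b₂, borel_fix_le hK hb₂⟩ e (Subgroup.mem_inf.mp hb₁).1 (Subgroup.mem_inf.mp hb₂).1
    · right
      exact conv _ _ ⟨b₁, borel_fix_le hK hb₁⟩ ⟨b₂, borel_fix_le hK hb₂⟩ e (Subgroup.mem_inf.mp hb₁).1 (Subgroup.mem_inf.mp hb₂).1
  conj_ne := by
    rintro ⟨s, hs'⟩ ⟨j, hj, hs⟩ heq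
    simp only at hs
    subst hs
    have hx1 := xJ_GS (K := K) (m := m) j
    have hxU : xJ K m j ∈ chevF4.borelSubgroup K := xJ_U hj
    have hb : (⟨_, hx1⟩ : ↥(GS K m)) ∈ (chevF4.borelSubgroup K ⊓ GS K m).subgroupOf (GS K m) := by
      rw [Subgroup.mem_subgroupOf]
      exact Subgroup.mem_inf.mpr ⟨hxU, hx1⟩
    have h1 : (⟨_, hs'⟩ : ↥(GS K m)) * ⟨_, hx1⟩ * ⟨_, hs'⟩ ∈ (((chevF4.borelSubgroup K ⊓ GS K m).subgroupOf (GS K m) : Subgroup ↥(GS K m)) : Set ↥(GS K m)) := by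
      rw [← heq]
      exact ⟨_, hb, rfl⟩
    rw [SetLike.mem_coe, Subgroup.mem_subgroupOf] at h1
    have h1' := (Subgroup.mem_inf.mp h1).1
    simp only [Subgroup.coe_mul] at h1'
    have h2 := H_le_B (sq_J (K := K) hj)
    have h3 := mul_mem h1' (inv_mem h2)
    have e : nWordG checks K (Js j) * xJ K m j * nWordG checks K (Js j) * (nWordG checks K (Js j) * nWordG checks K (Js j))⁻¹ =
        nWordG checks K (Js j) * xJ K m j * (nWordG checks K (Js j))⁻¹ := by group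
    rw [e] at h3
    obtain ⟨ρ', d₁, a⟩ := NAct_word (F := K) checks (Js_lt j hj)
    have h4 := conj_Rminus checks checks2 checks3 a (xJ_RS (m := m) hj)
    have h5 : nWordG checks K (Js j) * xJ K m j * (nWordG checks K (Js j))⁻¹ ∈ chevF4.borelSubgroup K ⊓ chevF4.negUnipotent K := Subgroup.mem_inf.mpr ⟨h3, h4⟩
    rw [borel_inf_neg checks checks2 checks3, Subgroup.mem_bot] at h5
    apply xJ_ne hK hj
    have e2 : xJ K m j = (nWordG checks K (Js j))⁻¹ * (nWordG checks K (Js j) * xJ K m j * (nWordG checks K (Js j))⁻¹) * nWordG checks K (Js j) := by group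
    rw [e2, h5]
    group

end

end Cfsg.Agent.H04.Tf.TF4
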