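import Cfsg.Agent.Lib.H04.Tf.BNF
import Cfsg.Agent.Lib.H04.Tw.Core

/-!
# The core of the Borel subgroup of the groups `²F₄`
-/

set_option autoImplicit false
set_option linter.style.longLine false
set_option linter.unusedSimpArgs false
set_option linter.unusedSectionVars false
set_option linter.unusedVariables false
set_option maxRecDepth 100000
set_option synthInstance.maxHeartbeats 0
set_option synthInstance.maxSize 100000

open Cfsg.Lie Cfsg.Agent.H04.Chev Cfsg.Agent.H04.Tw
open Cfsg.Agent.H04.Chev.TF4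

namespace Cfsg.Agent.H04.Tf.TF4

/-- a word for the longest element -/
def j0 : List ℕ := [0, 1, 0, 1, 0, 1, 0, 1]

theorem j0_lt : ∀ j ∈ j0, j < 2 := by decide

theorem j0_neg' : ∀ r, r < 48 → applyW chevF4 T (j0.flatMap Js) r = negF chevF4 r := by decide +kernel

theorem j0_neg : ∀ r, chevF4.nroots / 2 ≤ r → r < chevF4.nroots → applyW chevF4 T (j0.flatMap Js) r < chevF4.nroots / 2 := by
  intro r h1 h2
  rw [j0_neg' r h2]
  exact negF_neg checks2 h1 h2

theorem j0_flat_lt : ∀ i ∈ j0.flatMap Js, i < chevF4.rank := by decide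

theorem jnc01 : Jnc chevF4 T Js 0 1 := by unfold Jnc; decide +kernel

section
variable {K : Type*} [Field K] [Fintype K] [CharP K 2] {m : ℕ}
variable (hK : Fintype.card K = 2 ^ (2 * m + 1))

include hK

lemma nFlat_GS {l : List ℕ} : nWordG checks K (l.flatMap Js) ∈ GS K m := by
  induction l with
  | nil => exact one_mem _
  | cons a l ih =>
    rw [List.flatMap_cons, nWordG_append]
    exact mul_mem (nJ_GS hK) ih

/-- elements of the core lie in the torus -/
theorem core_mem_H' {g : GL chevF4.Idx K} (hc : ∀ x ∈ GS K m, x * g * x⁻¹ ∈ chevF4.borelSubgroup K) : g ∈ chevF4.diagonalSubgroup K := by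
  have hB : g ∈ chevF4.borelSubgroup K := by simpa using hc 1 (one_mem _)
  have hw := j0_flat_lt
  obtain ⟨π', e, ha⟩ := NAct_word (F := K) checks hw
  have hnS := nFlat_GS (l := j0) hK
  have hn := nWordG_mem checks checks3 hw (F := K)
  have h2 := hc _ (inv_mem hnS)
  rw [mem_borel_iff checks checks2 checks3] at h2
  obtain ⟨u, hu, v, hv, e1⟩ := h2
  set n := nWordG checks K (j0.flatMap Js) with hn0
  have e' : g = (n * u * n⁻¹) * (n * v * n⁻¹) := by
    have : g = n * (n⁻¹ * g * n⁻¹⁻¹) * n⁻¹ := by group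
    rw [this, e1]
    group
  have h1 : g ∈ chevF4.negUnipotent K ⊔ chevF4.diagonalSubgroup K := by
    rw [e']
    refine mul_mem (Subgroup.mem_sup_left ?_) (Subgroup.mem_sup_right (N_conj_H checks checks3 hn hv))
    rw [neg_eq_RS checks]
    rw [pos_eq_RS checks] at hu
    refine ha.conj_RS ?_ hu
    intro s hs hp
    exact (checks2.neg_iff _).mpr (j0_neg s ((checks2.pos_iff s).mp hp).1 hs)
  rw [← borel_inf_negH checks checks2 checks3]
  exact ⟨hB, h1⟩

omit hK in
lemma conj_xx (ψ : ℕ → Kˣ) {r : ℕ} (hr : r < chevF4.nroots) (t : K) :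
    torusG U chevF4 ψ * xG checks r t * (torusG U chevF4 ψ)⁻¹ = xG checks r ((tv U chevF4 ψ r : Kˣ) * t) := torusG_conj checks checks3 hr ψ t

/-- the core is trivial -/
theorem core_eq_bot' : ((chevF4.borelSubgroup K ⊓ GS K m).subgroupOf (GS K m)).normalCore = ⊥ := by
  rw [eq_bot_iff]
  rintro ⟨g, hgS⟩ hg
  rw [Subgroup.mem_bot, Subgroup.mk_eq_one]
  have hb : ∀ x ∈ GS K m, x * g * x⁻¹ ∈ chevF4.borelSubgroup K := by
    intro x hx
    have := hg ⟨x, hx⟩
    rw [Subgroup.mem_subgroupOf] at this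
    exact (Subgroup.mem_inf.mp this).1
  have hH := core_mem_H' hK hb
  have hH2 : ∀ x ∈ GS K m, x * g * x⁻¹ ∈ chevF4.diagonalSubgroup K := by
    intro x hx
    apply core_mem_H' hK
    intro y hy
    have := hb (y * x) (mul_mem hy hx)
    convert this using 1
    group
  rw [diagonal_eq checks checks3] at hH hH2
  obtain ⟨c, rfl⟩ := mem_HT.mp hH
  unfold hProd at *
  set ψ := capply chevF4 c with hψ
  rw [← diagonal_eq checks checks3] at hH hH2
  -- the commuting elements
  have hcomm : ∀ x ∈ GS K m, x ∈ chevF4.posUnipotent K → torusG U chevF4 ψ * x * (torusG U chevF4 ψ)⁻¹ ∈ chevF4.posUnipotent K → torusG U chevF4 ψ * x * (torusG U chevF4 ψ)⁻¹ = x := by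
    intro x hx hxU hxU2
    have h3 : x * torusG U chevF4 ψ * x⁻¹ * (torusG U chevF4 ψ)⁻¹ ∈ chevF4.diagonalSubgroup K := mul_mem (hH2 x hx) (inv_mem hH)
    have h4 : x * torusG U chevF4 ψ * x⁻¹ * (torusG U chevF4 ψ)⁻¹ ∈ chevF4.posUnipotent K := by
      have : x * torusG U chevF4 ψ * x⁻¹ * (torusG U chevF4 ψ)⁻¹ = x * (torusG U chevF4 ψ * x * (torusG U chevF4 ψ)⁻¹)⁻¹ := by group
      rw [this]
      exact mul_mem hxU (inv_mem hxU2)
    have h5 : x * torusG U chevF4 ψ * x⁻¹ * (torusG U chevF4 ψ)⁻¹ ∈ chevF4.posUnipotent K ⊓ chevF4.diagonalSubgroup K := ⟨h4, h3⟩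
    rw [pos_inf_H checks checks2 checks3, Subgroup.mem_bot] at h5
    have : x * (torusG U chevF4 ψ * x * (torusG U chevF4 ψ)⁻¹)⁻¹ = 1 := by
      rw [← h5]
      group
    exact (mul_inv_eq_one.mp this).symm
  have mU : ∀ r, 24 ≤ r → r < 48 → ∀ t : K, xG checks r t ∈ chevF4.posUnipotent K := fun r h1 h2 t => xG_mem_pos checks ((checks2.pos_iff _).mpr ⟨h1, h2⟩) t
  -- the first class
  have k0 : ψ 0 = 1 ∧ ψ 3 = 1 := by
    have e1 := conj_xx ψ (r := 33) (by decide) (1 : K)
    have e2 := conj_xx ψ (r := 24) (by decide) (1 : K)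
    rw [show (33 : ℕ) = chevF4.simple 0 from rfl, tv_simple checks3 (by decide)] at e1
    rw [show (24 : ℕ) = chevF4.simple 3 from rfl, tv_simple checks3 (by decide)] at e2
    have hx := E7 (K := K) (m := m) (1 : K)
    have e3 : Ep checks (th K m) 33 24 (1 : K) = xG checks 33 1 * xG checks 24 1 := by
      simp [Ep, map_one]
    rw [e3] at hx
    have hxU : xG checks 33 (1 : K) * xG checks 24 1 ∈ chevF4.posUnipotent K := mul_mem (mU 33 (by decide) (by decide) _) (mU 24 (by decide) (by decide) _)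
    have e4 : torusG U chevF4 ψ * (xG checks (chevF4.simple 0) 1 * xG checks (chevF4.simple 3) 1) * (torusG U chevF4 ψ)⁻¹ =
        xG checks (chevF4.simple 0) (((ψ 0 : Kˣ) : K) * 1) * xG checks (chevF4.simple 3) (((ψ 3 : Kˣ) : K) * 1) := by
      rw [← e1, ← e2]
      group
    have e5 := hcomm _ hx hxU (by
      rw [show (33 : ℕ) = chevF4.simple 0 from rfl, show (24 : ℕ) = chevF4.simple 3 from rfl, e4]
      exact mul_mem (mU 33 (by decide) (by decide) _) (mU 24 (by decide) (by decide) _))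
    rw [show (33 : ℕ) = chevF4.simple 0 from rfl, show (24 : ℕ) = chevF4.simple 3 from rfl, e4] at e5
    have e6 : xG checks 33 ((ψ 0 : Kˣ) * (1 : K)) * (xG checks 24 ((ψ 3 : Kˣ) * (1 : K)) * 1) = xG checks 33 (1 : K) * (xG checks 24 1 * 1) := by
      simp only [mul_one] at e5 ⊢
      exact e5
    obtain ⟨h1, h2⟩ := Uc_x_unique checks checks2 checks3 clw (i := 22) (by decide) rfl
      (mul_mem (x_mem_Uc checks clw (i := 23) (by decide) rfl _) (one_mem _)) (mul_mem (x_mem_Uc checks clw (i := 23) (by decide) rfl _) (one_mem _)) e6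
    obtain ⟨h3, _⟩ := Uc_x_unique checks checks2 checks3 clw (i := 23) (by decide) rfl (one_mem _) (one_mem _) h2
    exact ⟨Units.ext (by simpa using h1), Units.ext (by simpa using h3)⟩
  -- the second class
  have k1 : ψ 1 = 1 ∧ ψ 2 = 1 := by
    have e1 := conj_xx ψ (r := 27) (by decide) (1 : K)
    have e2 := conj_xx ψ (r := 25) (by decide) (1 : K)
    have e3 := conj_xx ψ (r := 28) (by decide) (1 : K)
    rw [show (27 : ℕ) = chevF4.simple 1 from rfl, tv_simple checks3 (by decide)] at e1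
    rw [show (25 : ℕ) = chevF4.simple 2 from rfl, tv_simple checks3 (by decide)] at e2
    have hx := E0 (K := K) (m := m) (1 : K) 0
    have e4 : Eq checks (th K m) (th' K m) 27 25 28 30 (1 : K) 0 = xG checks 27 1 * xG checks 25 1 * xG checks 28 1 := by
      simp [Eq, QP, map_one, map_zero, xG_zero]
    rw [e4] at hx
    have hxU : xG checks 27 (1 : K) * xG checks 25 1 * xG checks 28 1 ∈ chevF4.posUnipotent K := mul_mem (mul_mem (mU 27 (by decide) (by decide) _) (mU 25 (by decide) (by decide) _)) (mU 28 (by decide) (by decide) _)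
    have e5 : torusG U chevF4 ψ * (xG checks (chevF4.simple 1) 1 * xG checks (chevF4.simple 2) 1 * xG checks 28 1) * (torusG U chevF4 ψ)⁻¹ =
        xG checks (chevF4.simple 1) (((ψ 1 : Kˣ) : K) * 1) * xG checks (chevF4.simple 2) (((ψ 2 : Kˣ) : K) * 1) * xG checks 28 (((tv U chevF4 ψ 28 : Kˣ) : K) * 1) := by
      rw [← e1, ← e2, ← e3]
      group
    have e6 := hcomm _ hx hxU (by
      rw [show (27 : ℕ) = chevF4.simple 1 from rfl, show (25 : ℕ) = chevF4.simple 2 from rfl, e5]
      exact mul_mem (mul_mem (mU 27 (by decide) (by decide) _) (mU 25 (by decide) (by decide) _)) (mU 28 (by decide) (by decide) _))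
    rw [show (27 : ℕ) = chevF4.simple 1 from rfl, show (25 : ℕ) = chevF4.simple 2 from rfl, e5] at e6
    have e7 : QP checks 27 25 28 30 ((ψ 1 : Kˣ) * (1 : K)) ((ψ 2 : Kˣ) * 1) ((tv U chevF4 ψ 28 : Kˣ) * 1) 0 * 1 = QP checks 27 25 28 30 1 1 1 0 * 1 := by
      simp only [mul_one] at e6 ⊢
      simp only [QP, xG_zero, mul_one]
      exact e6
    obtain ⟨h1, h2, _⟩ := QP_unique checks checks2 checks3 clw (i := 0) (by decide) (QuadH_of (m := m) qt0) rfl rfl rfl rfl (one_mem _) (one_mem _) e7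
    exact ⟨Units.ext (by simpa using h1), Units.ext (by simpa using h2)⟩
  have key2 : ∀ i, i < chevF4.rank → ψ i = (1 : ℕ → Kˣ) i := by
    intro i hi
    have hi' : i < 4 := hi
    interval_cases i
    · exact k0.1
    · exact k1.1
    · exact k1.2
    · exact k0.2
  rw [torusG_congr key2, torusG_one]

/-- the pair is irreducible -/
theorem comm_not_B' {x y : ℕ} (hx : x < 2) (hy : y < 2) (hn : Jnc chevF4 T Js x y) :
    nWordG checks K (Js x) * nWordG checks K (Js y) * (nWordG checks K (Js x))⁻¹ * (nWordG checks K (Js y))⁻¹ ∉ chevF4.borelSubgroup K := by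
  intro hB
  have hx' := Js_lt x hx
  have hy' := Js_lt y hy
  have mx := nWordG_mem checks checks3 hx' (F := K)
  have my := nWordG_mem checks checks3 hy' (F := K)
  have hm : nWordG checks K (Js x) * nWordG checks K (Js y) * (nWordG checks K (Js x))⁻¹ * (nWordG checks K (Js y))⁻¹ ∈ chevF4.monomialSubgroup K :=
    mul_mem (mul_mem (mul_mem mx my) (inv_mem mx)) (inv_mem my)
  have hH : nWordG checks K (Js x) * nWordG checks K (Js y) * (nWordG checks K (Js x))⁻¹ * (nWordG checks K (Js y))⁻¹ ∈ chevF4.diagonalSubgroup K := by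
    rw [← borel_inf_monomial checks checks2 checks3]
    exact ⟨hB, hm⟩
  rw [diagonal_eq checks checks3] at hH
  obtain ⟨c, hc⟩ := mem_HT.mp hH
  obtain ⟨π₁, d₁, a₁⟩ := NAct_word (F := K) checks hx'
  obtain ⟨π₂, d₂, a₂⟩ := NAct_word (F := K) checks hy'
  have e1 : nWordG checks K (Js x) * nWordG checks K (Js y) = hProd U chevF4 c * (nWordG checks K (Js y) * nWordG checks K (Js x)) := by
    rw [← hc]
    group
  have a3 := a₁.mul a₂
  have a4 := (NAct_torus (F := K) checks checks3 (capply chevF4 c)).mul (a₂.mul a₁)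
  obtain ⟨t, ht, hne⟩ := hn
  apply hne
  have e2 := NAct.perm_unique (n := nWordG checks K (Js x) * nWordG checks K (Js y)) a3 (e1 ▸ a4) ht
  simpa [Function.comp] using e2

theorem bnF_irred : (bnF hK).Irreducible := by
  intro J hJ' hJ1 hJ3
  obtain ⟨⟨s, hsS⟩, hs⟩ := hJ1
  obtain ⟨⟨s', hsS'⟩, hs', hs''⟩ := hJ3
  obtain ⟨i, hi, e⟩ := hJ' hs
  obtain ⟨j, hj, e'⟩ := hs'
  have mN : ∀ k, nWordG checks K (Js k) ∈ GS K m := fun k => nJ_GS hK
  have mS : ∀ k (hk : k < 2), (⟨nWordG checks K (Js k), mN k⟩ : ↥(GS K m)) ∈ (bnF hK).S := fun k hk => ⟨k, hk, rfl⟩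
  simp only at e e'
  subst e e'
  have hne : i ≠ j := by
    rintro rfl
    exact hs'' hs
  have hc : (i = 0 ∧ j = 1) ∨ (i = 1 ∧ j = 0) := by omega
  rcases hc with ⟨rfl, rfl⟩ | ⟨rfl, rfl⟩
  · refine ⟨_, hs, _, ⟨mS 1 hj, hs''⟩, ?_⟩
    intro h6
    exact comm_not_B' hK hi hj jnc01 (Subgroup.mem_inf.mp (Subgroup.mem_subgroupOf.mp h6)).1
  · have h1' : Jnc chevF4 T Js 1 0 := by
      obtain ⟨t, ht, hne⟩ := jnc01
      exact ⟨t, ht, hne.symm⟩
    refine ⟨_, hs, _, ⟨mS 0 hj, hs''⟩, ?_⟩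
    intro h6
    exact comm_not_B' hK hi hj h1' (Subgroup.mem_inf.mp (Subgroup.mem_subgroupOf.mp h6)).1

end

end Cfsg.Agent.H04.Tf.TF4
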