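import Cfsg.Agent.Lib.H04.Tf.OrderF
import Cfsg.Agent.Lib.H04.Chev.Grade

/-!
# The exponent of the Sylow `2`-subgroups of the groups `²F₄`
-/

set_option autoImplicit false
set_option linter.style.longLine false
set_option linter.unusedSimpArgs false
set_option linter.unusedSectionVars false
set_option linter.unusedVariables false
set_option maxRecDepth 100000
set_option synthInstance.maxHeartbeats 0
set_option synthInstance.maxSize 100000

open Cfsg.Lie Cfsg.Agent.H04.Chev Cfsg.Agent.H04.Tw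
open Cfsg.Agent.H04.Chev.TF4

namespace Cfsg.Agent.H04.Tf.TF4

/-- the height -/
noncomputable def htF : ℕ → ℤ := ellOf U chevF4 (fun _ => 1)

lemma htF_eq (c : ℕ) : htF c = U.cofI c 0 + U.cofI c 1 + U.cofI c 2 + U.cofI c 3 := by
  unfold htF ellOf
  rw [show chevF4.rank = 4 from rfl]
  simp [Finset.sum_range_succ]

theorem htF_bound0 : ∀ c, c < 52 → -11 ≤ U.cofI c 0 + U.cofI c 1 + U.cofI c 2 + U.cofI c 3 ∧ U.cofI c 0 + U.cofI c 1 + U.cofI c 2 + U.cofI c 3 ≤ 11 := by decide +kernel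

theorem htF_pos0 : ∀ r, r < 48 → 24 ≤ r → 0 < U.cofI r 0 + U.cofI r 1 + U.cofI r 2 + U.cofI r 3 := by decide +kernel

theorem htF_bound (c : ℕ) (hc : c < 52) : -11 ≤ htF c ∧ htF c ≤ 11 := by
  rw [htF_eq]
  exact htF_bound0 c hc

theorem htF_pos (r : ℕ) (h1 : r < 48) (h2 : 24 ≤ r) : 0 < htF r := by
  rw [htF_eq]
  exact htF_pos0 r h1 h2

section
variable {K : Type*} [Field K]

theorem U_le_UniL : chevF4.posUnipotent K ≤ UniL chevF4 htF K := by
  rw [pos_eq_RS checks]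
  unfold RS
  rw [Subgroup.closure_le]
  rintro _ ⟨r, t, h1, h2, rfl⟩
  have h3 := (checks2.pos_iff r).mp h2
  exact xG_mem_UniL checks (ellOf_graded checks3 _) h1 (htF_pos r h1 h3.1) t

lemma sup_pow {M : Matrix chevF4.Idx chevF4.Idx K} (h : SupL chevF4 htF 1 M) (k : ℕ) : SupL chevF4 htF k (M ^ k) := by
  induction k with
  | zero => exact SupL_one le_rfl
  | succ k ih =>
    rw [pow_succ]
    have := SupL.mul ih h
    simpa using this

lemma sup_zero {M : Matrix chevF4.Idx chevF4.Idx K} (h : SupL chevF4 htF 23 M) : M = 0 := by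
  ext i j
  apply h i j
  have h1 := htF_bound _ (code_lt chevF4 i)
  have h2 := htF_bound _ (code_lt chevF4 j)
  omega

/-- a unipotent element of the group in characteristic two has order dividing `32` -/
theorem pow32 [CharP K 2] {g : GL chevF4.Idx K} (hg : g ∈ UniL chevF4 htF K) : g ^ 32 = 1 := by
  apply Units.ext
  have h1 : SupL chevF4 htF 1 ((g : Matrix chevF4.Idx chevF4.Idx K) - 1) := hg.1
  have h2 : ((g : Matrix chevF4.Idx chevF4.Idx K) - 1) ^ 23 = 0 := sup_zero (sup_pow h1 23)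
  have h3 : ((g : Matrix chevF4.Idx chevF4.Idx K) - 1) ^ 32 = 0 := by
    rw [show (32 : ℕ) = 23 + 9 from rfl, pow_add, h2, zero_mul]
  haveI : Nonempty chevF4.Idx := ⟨Sum.inr ⟨0, by decide⟩⟩
  have e : ((g : Matrix chevF4.Idx chevF4.Idx K) - 1) ^ (2 ^ 5) = (g : Matrix chevF4.Idx chevF4.Idx K) ^ (2 ^ 5) - 1 ^ (2 ^ 5) :=
    sub_pow_char_pow_of_commute (p := 2) 5 (Commute.one_right _)
  rw [show (2 : ℕ) ^ 5 = 32 from rfl, h3, one_pow] at e
  rw [Units.val_pow_eq_pow_val, Units.val_one]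
  exact (sub_eq_zero.mp e.symm)

end

section
variable {K : Type*} [Field K] [Fintype K] [CharP K 2] {m : ℕ}
variable (hK : Fintype.card K = 2 ^ (2 * m + 1))

include hK

/-- the Sylow `2`-subgroup -/
theorem U_sylow : ∃ S : Sylow 2 ↥(GS K m), (S : Subgroup ↥(GS K m)) = (chevF4.posUnipotent K ⊓ GS K m).subgroupOf (GS K m) := by
  set P : Subgroup ↥(GS K m) := (chevF4.posUnipotent K ⊓ GS K m).subgroupOf (GS K m) with hP
  have hc : Nat.card P = Nat.card ↥(chevF4.posUnipotent K ⊓ GS K m) := Nat.card_congr (Subgroup.subgroupOfEquivOfLe inf_le_right).toEquiv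
  rw [card_U hK, hK] at hc
  have hp : IsPGroup 2 P := by
    apply IsPGroup.of_card (n := (2 * m + 1) * 12)
    rw [hc, pow_mul]
  have hi := Subgroup.card_mul_index P
  rw [hc, card_GF4 hK] at hi
  set q : ℕ := 2 ^ (2 * m + 1) with hq
  have hq2 : ∃ k, q = 2 * k := ⟨2 ^ (2 * m), by rw [hq]; ring⟩
  obtain ⟨k, hk⟩ := hq2
  have hq1 : 1 ≤ q := Nat.one_le_two_pow
  have hq0 : 0 < q ^ 12 := by positivity
  have e1 : P.index = (q - 1) * (q ^ 3 + 1) * (q ^ 4 - 1) * (q ^ 6 + 1) := by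
    apply Nat.eq_of_mul_eq_mul_left hq0
    rw [hi]
    ring
  have h3 : ∀ n, 1 ≤ n → ∃ l, q ^ n = 2 * l ∧ 1 ≤ l := by
    intro n hn
    refine ⟨k * q ^ (n - 1), ?_, ?_⟩
    · obtain ⟨n', rfl⟩ : ∃ n', n = n' + 1 := ⟨n - 1, by omega⟩
      rw [pow_succ, Nat.add_sub_cancel]
      nth_rw 2 [hk]
      ring
    · have hk1 : 1 ≤ k := by omega
      exact Nat.mul_pos hk1 (by positivity)
  have hidx : ¬ 2 ∣ P.index := by
    rw [e1]
    intro hd
    obtain ⟨a3, ha3, _⟩ := h3 3 (by norm_num)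
    obtain ⟨a4, ha4, ha4'⟩ := h3 4 (by norm_num)
    obtain ⟨a6, ha6, _⟩ := h3 6 (by norm_num)
    rw [Nat.Prime.dvd_mul Nat.prime_two, Nat.Prime.dvd_mul Nat.prime_two, Nat.Prime.dvd_mul Nat.prime_two] at hd
    rw [ha3, ha4, ha6] at hd
    omega
  exact ⟨hp.toSylow hidx, rfl⟩

/-- the exponent -/
theorem exp32 {x : ↥(GS K m)} (hx : ∃ j : ℕ, orderOf x = 2 ^ j) : orderOf x ≤ 32 := by
  obtain ⟨j, hj⟩ := hx
  obtain ⟨S, hS⟩ := U_sylow hK
  have hz : IsPGroup 2 (Subgroup.zpowers x) := by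
    apply IsPGroup.of_card (n := j)
    rw [Nat.card_zpowers, hj]
  obtain ⟨Q, hQ⟩ := hz.exists_le_sylow
  obtain ⟨g, rfl⟩ := MulAction.exists_smul_eq ↥(GS K m) S Q
  have hxQ : x ∈ ((g • S : Sylow 2 ↥(GS K m)) : Subgroup ↥(GS K m)) := hQ (Subgroup.mem_zpowers x)
  rw [Sylow.coe_subgroup_smul, Subgroup.mem_pointwise_smul_iff_inv_smul_mem, hS, Subgroup.mem_subgroupOf, MulAut.smul_def] at hxQ
  have h1 := (Subgroup.mem_inf.mp hxQ).1
  have h2 := pow32 (U_le_UniL h1)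
  have h3 : ((MulAut.conj g)⁻¹ x) ^ 32 = 1 := by
    apply Subtype.ext
    exact h2
  have h4 : x ^ 32 = 1 := by
    rw [← map_pow, map_eq_one_iff _ (MulAut.conj g)⁻¹.injective] at h3
    exact h3
  exact Nat.le_of_dvd (by norm_num) (orderOf_dvd_of_pow_eq_one h4)

end

end Cfsg.Agent.H04.Tf.TF4
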