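import Cfsg.Agent.Lib.H04.Tf.UF
import Cfsg.Agent.Lib.H04.Chev.TorusCard

/-!
# The fixed points in the torus for the groups `²F₄`
-/

set_option autoImplicit false
set_option linter.style.longLine false
set_option linter.unusedSimpArgs false
set_option linter.unusedSectionVars false
set_option linter.unusedVariables false
set_option maxRecDepth 100000

open Cfsg.Lie Cfsg.Agent.H04.Chev Cfsg.Agent.H04.Tw
open Cfsg.Agent.H04.Chev.TF4

namespace Cfsg.Agent.H04.Tf.TF4

theorem J1_inv : ∀ s, s < 48 → applyW chevF4 T J1 (applyW chevF4 T J1 s) = s := by decide +kernel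
theorem J1_simple : (applyW chevF4 T J1 (chevF4.simple 0), applyW chevF4 T J1 (chevF4.simple 1), applyW chevF4 T J1 (chevF4.simple 2), applyW chevF4 T J1 (chevF4.simple 3)) = (37, 20, 22, 32) := by decide +kernel
theorem cof37 : (U.cofI 37 0, U.cofI 37 1, U.cofI 37 2, U.cofI 37 3) = (1, 2, 1, 0) := by decide +kernel
theorem cof32 : (U.cofI 32 0, U.cofI 32 1, U.cofI 32 2, U.cofI 32 3) = (0, 2, 2, 1) := by decide +kernel
theorem comm_pairs : (∀ e ∈ chevF4.commTerms 33 23, e.2.1 % 2 = 0) ∧ (∀ e ∈ chevF4.commTerms 14 24, e.2.1 % 2 = 0) := by decide +kernel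

section
variable {K : Type*} [Field K]

/-- the torus parameters -/
def psiT (m : ℕ) (s t : Kˣ) : ℕ → Kˣ := fun j => if j = 0 then s ^ (2 ^ m) else if j = 1 then t ^ (2 ^ m) else if j = 2 then t else s

/-- the fixed torus elements -/
noncomputable def TT (m : ℕ) (s t : Kˣ) : GL chevF4.Idx K := torusG U chevF4 (psiT m s t)

lemma tv4 (ψ : ℕ → Kˣ) (c : ℕ) : tv U chevF4 ψ c = ψ 0 ^ U.cofI c 0 * ψ 1 ^ U.cofI c 1 * ψ 2 ^ U.cofI c 2 * ψ 3 ^ U.cofI c 3 := by
  unfold tv
  rw [show chevF4.rank = 4 from rfl]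
  simp [Finset.prod_range_succ]

lemma torus_ext {ψ ψ' : ℕ → Kˣ} (h0 : ψ 0 = ψ' 0) (h1 : ψ 1 = ψ' 1) (h2 : ψ 2 = ψ' 2) (h3 : ψ 3 = ψ' 3) : torusG U chevF4 ψ = torusG U chevF4 ψ' := by
  apply torusG_congr
  intro j hj
  rw [show chevF4.rank = 4 from rfl] at hj
  interval_cases j <;> assumption

lemma TT_mul (m : ℕ) (s t s' t' : Kˣ) : TT m s t * TT m s' t' = TT m (s * s') (t * t') := by
  unfold TT
  rw [← torusG_mul]
  apply torus_ext <;> simp [psiT, mul_pow]

/-- a torus element determines its parameters -/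
lemma torus_param {ψ ψ' : ℕ → Kˣ} (h : torusG U chevF4 ψ = torusG U chevF4 ψ') {j : ℕ} (hj : j < chevF4.rank) : ψ j = ψ' j := by
  have hp := checks.simple_lt j hj
  have e1 := torusG_conj (F := K) checks checks3 hp ψ 1
  have e2 := torusG_conj (F := K) checks checks3 hp ψ' 1
  rw [h, e2] at e1
  have e3 := xG_param_inj checks checks2 hp e1
  rw [tv_simple checks3 hj, tv_simple checks3 hj] at e3
  apply Units.ext
  simpa using e3.symm

variable [Fintype K] [CharP K 2] {m : ℕ}

/-- the parameters of a fixed torus element -/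
lemma torus_fixed {ψ : ℕ → Kˣ} (h : torusG U chevF4 ψ ∈ chevF4.group K) (hf : (Sg K m).f (torusG U chevF4 ψ) = torusG U chevF4 ψ) {r : ℕ} (hr : r < chevF4.nroots) :
    ((tv U chevF4 ψ (X.bar r) : Kˣ) : K) = (Sg K m).par r (tv U chevF4 ψ r : Kˣ) := by
  have e1 := torusG_conj (F := K) checks checks3 hr ψ 1
  have e2 := congrArg (Sg K m).f e1
  have hx := xG_mem_group (F := K) checks hr 1
  rw [(Sg K m).f_mul (mul_mem h hx) (inv_mem h), (Sg K m).f_mul h hx, SF.f_inv _ h, hf, (Sg K m).f_x hr, (Sg K m).f_x hr, map_one, sg_bar] at e2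
  have hb : X.bar r < chevF4.nroots := xOK.bar_root r hr
  rw [torusG_conj (F := K) checks checks3 hb ψ 1] at e2
  have e3 := xG_param_inj checks checks2 hb e2
  simpa using e3

theorem fixed_form {ψ : ℕ → Kˣ} (h : torusG U chevF4 ψ ∈ chevF4.group K) (hf : (Sg K m).f (torusG U chevF4 ψ) = torusG U chevF4 ψ) :
    torusG U chevF4 ψ = TT m (ψ 3) (ψ 2) := by
  have e1 := torus_fixed h hf (r := 24) (by decide)
  have e2 := torus_fixed h hf (r := 25) (by decide)
  rw [show X.bar 24 = chevF4.simple 0 from by decide +kernel, tv_simple checks3 (by decide), show (24 : ℕ) = chevF4.simple 3 from rfl, tv_simple checks3 (by decide),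
    par_one (show X.lam (chevF4.simple 3) = 1 by decide +kernel), th_ap] at e1
  rw [show X.bar 25 = chevF4.simple 1 from by decide +kernel, tv_simple checks3 (by decide), show (25 : ℕ) = chevF4.simple 2 from rfl, tv_simple checks3 (by decide),
    par_one (show X.lam (chevF4.simple 2) = 1 by decide +kernel), th_ap] at e2
  unfold TT
  apply torus_ext
  · simp only [psiT, if_true]
    apply Units.ext
    rw [e1, Units.val_pow_eq_pow_val]
  · simp only [psiT, show (1 : ℕ) ≠ 0 by decide, if_false, if_true]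
    apply Units.ext
    rw [e2, Units.val_pow_eq_pow_val]
  · simp [psiT]
  · simp [psiT]

/-- commuting root elements for the first class -/
lemma cm1 (u v : K) : xG checks 24 u * xG checks 33 v = xG checks 33 v * xG checks 24 u := (PairH_of (m := 0) (K := K) pt7).comm v u
lemma cm2 (u v : K) : xG checks 23 u * xG checks 14 v = xG checks 14 v * xG checks 23 u := (PairH_of (m := 0) (K := K) ptm).comm v u
lemma cm3 (u v : K) : xG checks 23 u * xG checks 33 v = xG checks 33 v * xG checks 23 u :=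
  xG_comm_even checks (by decide) (by decide) (by decide) (by decide) comm_pairs.1 v u
lemma cm4 (u v : K) : xG checks 24 u * xG checks 14 v = xG checks 14 v * xG checks 24 u :=
  xG_comm_even checks (by decide) (by decide) (by decide) (by decide) comm_pairs.2 v u

lemma nG_two {r : ℕ} (hr : r < chevF4.nroots) (t : K) : nG checks r t = xG checks r t * xG checks (negF chevF4 r) t⁻¹ * xG checks r t := by
  unfold nG Cfsg.Lie.ChevalleyDatum.nWord
  simp only [wordG_cons, wordG_nil, mul_one, CharTwo.neg_eq, mul_assoc]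
  rw [show chevF4.neg r = negF chevF4 r from checks.neg r hr]

/-- the elements of the first class give elements of `N` -/
lemma nPair (a : K) : Ep checks (th K m) 33 24 a * Ep checks (th K m) 14 23 a⁻¹ * Ep checks (th K m) 33 24 a =
    nG checks 33 (th K m a) * nG checks 24 a := by
  rw [nG_two (by decide), nG_two (by decide), show negF chevF4 33 = 14 from rfl, show negF chevF4 24 = 23 from rfl]
  unfold Ep
  rw [map_inv₀]
  set p := th K m a
  calc xG checks 33 p * xG checks 24 a * (xG checks 14 p⁻¹ * xG checks 23 a⁻¹) * (xG checks 33 p * xG checks 24 a)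
      = xG checks 33 p * (xG checks 24 a * xG checks 14 p⁻¹) * (xG checks 23 a⁻¹ * xG checks 33 p) * xG checks 24 a := by group
    _ = xG checks 33 p * (xG checks 14 p⁻¹ * xG checks 24 a) * (xG checks 33 p * xG checks 23 a⁻¹) * xG checks 24 a := by rw [cm4, cm3]
    _ = xG checks 33 p * xG checks 14 p⁻¹ * (xG checks 24 a * xG checks 33 p) * xG checks 23 a⁻¹ * xG checks 24 a := by group
    _ = xG checks 33 p * xG checks 14 p⁻¹ * (xG checks 33 p * xG checks 24 a) * xG checks 23 a⁻¹ * xG checks 24 a := by rw [cm1]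
    _ = _ := by group

lemma comm_nG (u v : K) : Commute (nG checks 33 u) (nG checks 24 v) := by
  rw [nG_two (by decide), nG_two (by decide), show negF chevF4 33 = 14 from rfl, show negF chevF4 24 = 23 from rfl]
  have c1 : ∀ a b : K, Commute (xG checks 33 a) (xG checks 24 b) := fun a b => (cm1 b a).symm
  have c2 : ∀ a b : K, Commute (xG checks 33 a) (xG checks 23 b) := fun a b => (cm3 b a).symm
  have c3 : ∀ a b : K, Commute (xG checks 14 a) (xG checks 24 b) := fun a b => (cm4 b a).symm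
  have c4 : ∀ a b : K, Commute (xG checks 14 a) (xG checks 23 b) := fun a b => (cm2 b a).symm
  have h33 : ∀ a, Commute (xG checks 33 a) (xG checks 24 v * xG checks 23 v⁻¹ * xG checks 24 v) :=
    fun a => ((c1 a v).mul_right (c2 a _)).mul_right (c1 a v)
  have h14 : ∀ a, Commute (xG checks 14 a) (xG checks 24 v * xG checks 23 v⁻¹ * xG checks 24 v) :=
    fun a => ((c3 a v).mul_right (c4 a _)).mul_right (c3 a v)
  exact ((h33 u).mul_left (h14 u⁻¹)).mul_left (h33 u)

/-- the first family of torus elements -/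
lemma hPair_eq (a : Kˣ) : hG checks 33 (th K m (a : K)) * hG checks 24 (a : K) = TT m (a ^ 2) a⁻¹ := by
  have e1 : th K m (a : K) = ((a ^ 2 ^ m : Kˣ) : K) := by
    rw [th_ap, Units.val_pow_eq_pow_val]
  rw [e1, show (33 : ℕ) = chevF4.simple 0 from rfl, show (24 : ℕ) = chevF4.simple 3 from rfl, hG_simple checks checks3 (by decide), hG_simple checks checks3 (by decide), ← torusG_mul]
  unfold TT
  have c0 : ∀ (x : Kˣ) (j : ℕ) (z : ℤ), chevF4.cartan 0 (chevF4.simple j) = z → psiI chevF4 0 x j = x ^ z := fun x j z h => by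
    unfold psiI
    rw [h]
  have c3 : ∀ (x : Kˣ) (j : ℕ) (z : ℤ), chevF4.cartan 3 (chevF4.simple j) = z → psiI chevF4 3 x j = x ^ z := fun x j z h => by
    unfold psiI
    rw [h]
  apply torus_ext
  · simp only [Pi.mul_apply, psiT, if_true]
    rw [c0 _ 0 2 (by decide +kernel), c3 _ 0 0 (by decide +kernel)]
    rw [zpow_zero, mul_one, zpow_ofNat, ← pow_mul, ← pow_mul, mul_comm]
  · simp only [Pi.mul_apply, psiT, show (1 : ℕ) ≠ 0 by decide, if_false, if_true]
    rw [c0 _ 1 (-1) (by decide +kernel), c3 _ 1 0 (by decide +kernel)]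
    simp
  · simp only [Pi.mul_apply, psiT, show (2 : ℕ) ≠ 0 by decide, show (2 : ℕ) ≠ 1 by decide, if_false, if_true]
    rw [c0 _ 2 0 (by decide +kernel), c3 _ 2 (-1) (by decide +kernel)]
    simp
  · simp only [Pi.mul_apply, psiT, show (3 : ℕ) ≠ 0 by decide, show (3 : ℕ) ≠ 1 by decide, show (3 : ℕ) ≠ 2 by decide, if_false]
    rw [c0 _ 3 0 (by decide +kernel), c3 _ 3 2 (by decide +kernel)]
    simp

lemma hPair_mem_H (a : Kˣ) : TT m (a ^ 2) a⁻¹ ∈ chevF4.diagonalSubgroup K := by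
  rw [← hPair_eq]
  exact mul_mem (hG_mem_diagonal checks (by decide) ((map_ne_zero _).mpr a.ne_zero)) (hG_mem_diagonal checks (by decide) a.ne_zero)

lemma hPair_mem_GS (a : Kˣ) : TT m (a ^ 2) a⁻¹ ∈ GS K m := by
  rw [← hPair_eq, hG_eq, hG_eq]
  have e1 : (-1 : K) = 1 := CharTwo.neg_eq 1
  rw [e1]
  have e2 : nG checks 33 (th K m (a : K)) * nG checks 33 1 * (nG checks 24 (a : K) * nG checks 24 1) =
      (nG checks 33 (th K m (a : K)) * nG checks 24 (a : K)) * (nG checks 33 1 * nG checks 24 1) := by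
    calc _ = nG checks 33 (th K m (a : K)) * (nG checks 33 1 * nG checks 24 (a : K)) * nG checks 24 1 := by group
      _ = nG checks 33 (th K m (a : K)) * (nG checks 24 (a : K) * nG checks 33 1) * nG checks 24 1 := by rw [(comm_nG _ _).eq]
      _ = _ := by group
  rw [e2, ← nPair]
  have e3 : nG checks 33 (1 : K) * nG checks 24 1 = Ep checks (th K m) 33 24 1 * Ep checks (th K m) 14 23 (1 : K)⁻¹ * Ep checks (th K m) 33 24 1 := by
    rw [nPair, map_one]
  rw [e3]
  exact mul_mem (mul_mem (mul_mem (Ep_GS _) (EpN_GS _)) (Ep_GS _)) (mul_mem (mul_mem (Ep_GS _) (EpN_GS _)) (Ep_GS _))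

/-- conjugating an element of the torus by an involutive word -/
lemma conj_torus {l : List ℕ} (hl : ∀ i ∈ l, i < chevF4.rank) (hinv : ∀ s, s < chevF4.nroots → applyW chevF4 T l (applyW chevF4 T l s) = s)
    {ψ : ℕ → Kˣ} (hψ : torusG U chevF4 ψ ∈ chevF4.diagonalSubgroup K) :
    nWordG checks K l * torusG U chevF4 ψ * (nWordG checks K l)⁻¹ = torusG U chevF4 (fun j => tv U chevF4 ψ (applyW chevF4 T l (chevF4.simple j))) := by
  have hn := nWordG_mem (F := K) checks checks3 hl
  have h1 := N_conj_H checks checks3 hn hψ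
  rw [diagonal_eq checks checks3] at h1
  obtain ⟨c, hc⟩ := mem_HT.mp h1
  rw [hc]
  unfold hProd
  apply torusG_congr
  intro j hj
  have hp := checks.simple_lt j hj
  have e1 := torusG_conj (F := K) checks checks3 hp (capply chevF4 c) 1
  rw [tv_simple checks3 hj] at e1
  have hp' := applyW_lt checks hl hp
  have e2 := conj_word (K := K) checks hl hp' 1
  rw [hinv _ hp] at e2
  have e3 := conj_word (K := K) checks hl (s := applyW chevF4 T l (chevF4.simple j)) hp' ((tv U chevF4 ψ (applyW chevF4 T l (chevF4.simple j)) : Kˣ) * 1)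
  rw [hinv _ hp] at e3
  have e4 := torusG_conj (F := K) checks checks3 hp' ψ 1
  have e5 : torusG U chevF4 (capply chevF4 c) * xG checks (chevF4.simple j) 1 * (torusG U chevF4 (capply chevF4 c))⁻¹ = xG checks (chevF4.simple j) (((tv U chevF4 ψ (applyW chevF4 T l (chevF4.simple j)) : Kˣ) : K) * 1) := by
    have e6 : torusG U chevF4 (capply chevF4 c) = nWordG checks K l * torusG U chevF4 ψ * (nWordG checks K l)⁻¹ := hc.symm
    rw [e6, ← e3, ← e4, ← e2]
    group
  rw [e5] at e1
  have e7 := xG_param_inj checks checks2 hp e1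
  apply Units.ext
  simpa using e7.symm

variable (hK : Fintype.card K = 2 ^ (2 * m + 1))
include hK

lemma unit_fix (z : Kˣ) : z ^ (2 * 2 ^ m * 2 ^ m) = z := by
  apply Units.ext
  rw [Units.val_pow_eq_pow_val]
  have e : 2 * 2 ^ m * 2 ^ m = 2 ^ (2 * m + 1) := by ring
  rw [e, ← hK, FiniteField.pow_card]

lemma conj_TT {s t : Kˣ} (hH : TT m s t ∈ chevF4.diagonalSubgroup K) :
    nWordG checks K J1 * TT m s t * (nWordG checks K J1)⁻¹ = TT m (s * t ^ (2 * 2 ^ m + 2)) t⁻¹ := by
  unfold TT at hH ⊢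
  rw [conj_torus J1_lt J1_inv hH]
  have c37 := cof37
  have c32 := cof32
  have hs := J1_simple
  simp only [Prod.mk.injEq] at c37 c32 hs
  obtain ⟨s0, s1, s2, s3⟩ := hs
  apply torus_ext
  · simp only [s0]
    rw [tv4, c37.1, c37.2.1, c37.2.2.1, c37.2.2.2]
    simp only [psiT, if_true, show (1 : ℕ) ≠ 0 by decide, show (2 : ℕ) ≠ 0 by decide, show (3 : ℕ) ≠ 0 by decide, show (2 : ℕ) ≠ 1 by decide, show (3 : ℕ) ≠ 1 by decide, show (3 : ℕ) ≠ 2 by decide, if_false]
    simp only [zpow_one, zpow_zero, mul_one, zpow_ofNat]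
    have h : (t ^ (2 * 2 ^ m + 2)) ^ 2 ^ m = t * t ^ (2 * 2 ^ m) := by
      rw [← pow_mul, show (2 * 2 ^ m + 2) * 2 ^ m = 2 * 2 ^ m * 2 ^ m + 2 * 2 ^ m by ring, pow_add, unit_fix hK]
    rw [mul_pow, h]
    apply Units.ext
    simp only [Units.val_mul, Units.val_pow_eq_pow_val]
    ring
  · simp only [s1]
    rw [show (20 : ℕ) = negF chevF4 27 from rfl, tv_neg checks3 (by decide), show (27 : ℕ) = chevF4.simple 1 from rfl, tv_simple checks3 (by decide)]
    simp [psiT]
  · simp only [s2]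
    rw [show (22 : ℕ) = negF chevF4 25 from rfl, tv_neg checks3 (by decide), show (25 : ℕ) = chevF4.simple 2 from rfl, tv_simple checks3 (by decide)]
    simp [psiT]
  · simp only [s3]
    rw [tv4, c32.1, c32.2.1, c32.2.2.1, c32.2.2.2]
    simp only [psiT, if_true, show (1 : ℕ) ≠ 0 by decide, show (2 : ℕ) ≠ 0 by decide, show (3 : ℕ) ≠ 0 by decide, show (2 : ℕ) ≠ 1 by decide, show (3 : ℕ) ≠ 1 by decide, show (3 : ℕ) ≠ 2 by decide, if_false]
    simp only [zpow_one, zpow_zero, one_mul, zpow_ofNat]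
    apply Units.ext
    simp only [Units.val_mul, Units.val_pow_eq_pow_val]
    ring

lemma conj_hPair (a : Kˣ) : nWordG checks K J1 * TT m (a ^ 2) a⁻¹ * (nWordG checks K J1)⁻¹ = TT m (a ^ (2 * 2 ^ m))⁻¹ a := by
  rw [conj_TT hK (hPair_mem_H a), inv_inv]
  congr 1
  apply Units.ext
  have h0 : (a : K) ≠ 0 := a.ne_zero
  simp only [Units.val_mul, Units.val_pow_eq_pow_val, Units.val_inv_eq_inv_val, inv_pow]
  rw [pow_add]
  field_simp

lemma TT_solve (s t : Kˣ) : ∃ x y : Kˣ, TT m s t = TT m (x ^ 2) x⁻¹ * TT m (y ^ (2 * 2 ^ m))⁻¹ y := by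
  set z := s * t ^ (2 * 2 ^ m) with hz
  set x := z ^ (1 + 2 ^ m) with hx
  refine ⟨x, t * x, ?_⟩
  rw [TT_mul]
  have e1 : x⁻¹ * (t * x) = t := by
    rw [mul_comm t, ← mul_assoc, inv_mul_cancel, one_mul]
  have e2 : x ^ 2 * ((t * x) ^ (2 * 2 ^ m))⁻¹ = s := by
    have h1 : x ^ 2 = z * z * z ^ (2 * 2 ^ m) := by
      rw [hx, ← pow_mul, show (1 + 2 ^ m) * 2 = 1 + 1 + 2 * 2 ^ m by ring, pow_add, pow_add, pow_one]
    have h2 : x ^ (2 * 2 ^ m) = z ^ (2 * 2 ^ m) * z := by
      rw [hx, ← pow_mul, show (1 + 2 ^ m) * (2 * 2 ^ m) = 2 * 2 ^ m + 2 * 2 ^ m * 2 ^ m by ring, pow_add, unit_fix hK]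
    rw [mul_pow, h1, h2]
    set A := z ^ (2 * 2 ^ m)
    set B := t ^ (2 * 2 ^ m)
    have hzB : z = s * B := hz
    rw [hzB]
    apply Units.ext
    have h0 : (s : K) ≠ 0 := s.ne_zero
    have h3 : (B : K) ≠ 0 := B.ne_zero
    have h4 : (A : K) ≠ 0 := A.ne_zero
    simp only [Units.val_mul, Units.val_inv_eq_inv_val]
    field_simp
  rw [e1, e2]

theorem TT_mem_H (s t : Kˣ) : TT m s t ∈ chevF4.diagonalSubgroup K := by
  obtain ⟨x, y, e⟩ := TT_solve hK s t
  rw [e, ← conj_hPair hK]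
  exact mul_mem (hPair_mem_H x) (N_conj_H checks checks3 (nWordG_mem checks checks3 J1_lt) (hPair_mem_H y))

theorem TT_mem_GS (s t : Kˣ) : TT m s t ∈ GS K m := by
  obtain ⟨x, y, e⟩ := TT_solve hK s t
  rw [e, ← conj_hPair hK]
  exact mul_mem (hPair_mem_GS x) (mul_mem (mul_mem nJ1_GS (hPair_mem_GS y)) (inv_mem nJ1_GS))

/-- the fixed points of the torus lie in the group -/
theorem H_fix_le : chevF4.diagonalSubgroup K ⊓ SF.Fx (Sg K m) ≤ GS K m := by
  rintro g ⟨hg1, hg2, hg3⟩
  rw [diagonal_eq checks checks3] at hg1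
  obtain ⟨c, rfl⟩ := mem_HT.mp hg1
  unfold hProd at hg2 hg3 ⊢
  rw [fixed_form hg2 hg3]
  exact TT_mem_GS hK _ _

theorem H_inf : chevF4.diagonalSubgroup K ⊓ GS K m = chevF4.diagonalSubgroup K ⊓ SF.Fx (Sg K m) :=
  le_antisymm (inf_le_inf_left _ (GS_le_Fx hK)) (le_inf inf_le_left (H_fix_le hK))

theorem card_H : Nat.card ↥(chevF4.diagonalSubgroup K ⊓ GS K m) = (Fintype.card K - 1) ^ 2 := by
  classical
  have hmem : ∀ x : Kˣ × Kˣ, TT m x.1 x.2 ∈ chevF4.diagonalSubgroup K ⊓ GS K m := fun x => ⟨TT_mem_H hK _ _, TT_mem_GS hK _ _⟩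
  have hbij : Function.Bijective (fun x : Kˣ × Kˣ => (⟨_, hmem x⟩ : ↥(chevF4.diagonalSubgroup K ⊓ GS K m))) := by
    constructor
    · rintro ⟨s, t⟩ ⟨s', t'⟩ e
      have e1 : torusG U chevF4 (psiT m s t) = torusG U chevF4 (psiT m s' t') := congrArg Subtype.val e
      have h3 := torus_param e1 (j := 3) (by decide)
      have h2 := torus_param e1 (j := 2) (by decide)
      simp [psiT] at h2 h3
      rw [h2, h3]
    · rintro ⟨g, hg1, hg2⟩
      have h1 := hg1
      rw [diagonal_eq checks checks3] at h1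
      obtain ⟨c, rfl⟩ := mem_HT.mp h1
      have h3 := GS_le_Fx hK hg2
      have h4 := fixed_form h3.1 h3.2
      exact ⟨(capply chevF4 c 3, capply chevF4 c 2), Subtype.ext h4.symm⟩
  rw [← Nat.card_congr (Equiv.ofBijective _ hbij), Nat.card_prod, Nat.card_eq_fintype_card, Fintype.card_units, sq]

end

end Cfsg.Agent.H04.Tf.TF4
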