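import Cfsg.Agent.Lib.H04.Tf.Tab.Lv
import Cfsg.Agent.Lib.H04.Tf.Char2
import Cfsg.Prelude.Def_LieTwisted

/-!
# The endomorphism for the groups `²F₄`
-/

set_option autoImplicit false
set_option linter.style.longLine false
set_option linter.unusedSimpArgs false
set_option linter.unusedSectionVars false
set_option linter.unusedVariables false
set_option maxRecDepth 100000

open Cfsg.Lie Cfsg.Agent.H04.Chev Cfsg.Agent.H04.Tw
open Cfsg.Agent.H04.Chev.TF4

namespace Cfsg.Agent.H04.Tf.TF4

section powers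
variable {K : Type*} [Field K] [Fintype K]

lemma charTwo_of_card {m : ℕ} (hK : Fintype.card K = 2 ^ (2 * m + 1)) : CharP K 2 := by
  obtain ⟨p₀, hchar⟩ := CharP.exists K
  have := hchar
  obtain ⟨n, h1, h2⟩ := FiniteField.card K p₀
  have h3 : p₀ ∣ 2 ^ (2 * m + 1) := by
    rw [← hK, h2]
    exact dvd_pow_self p₀ n.ne_zero
  have h4 : p₀ = 2 := (Nat.prime_dvd_prime_iff_eq h1 Nat.prime_two).mp (h1.dvd_of_dvd_pow h3)
  rwa [h4] at hchar

variable [CharP K 2]

/-- powers of the Frobenius map -/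
noncomputable def powE (K : Type*) [Field K] [Fintype K] [CharP K 2] (k : ℕ) : K ≃+* K :=
  haveI : ExpChar K 2 := ExpChar.prime Nat.prime_two
  RingEquiv.ofBijective (iterateFrobenius K 2 k) ⟨RingHom.injective _, Finite.surjective_of_injective (RingHom.injective _)⟩

lemma powE_apply (k : ℕ) (t : K) : powE K k t = t ^ (2 ^ k) := by
  have : ExpChar K 2 := ExpChar.prime Nat.prime_two
  exact iterateFrobenius_def 2 k t

/-- the map `θ` -/
noncomputable abbrev th (K : Type*) [Field K] [Fintype K] [CharP K 2] (m : ℕ) : K ≃+* K := powE K m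
/-- the map `2 θ` -/
noncomputable abbrev th' (K : Type*) [Field K] [Fintype K] [CharP K 2] (m : ℕ) : K ≃+* K := powE K (m + 1)

lemma th_ap (m : ℕ) (t : K) : th K m t = t ^ (2 ^ m) := powE_apply m t

lemma th'_ap (m : ℕ) (t : K) : th' K m t = t ^ (2 * 2 ^ m) := by
  rw [th', powE_apply, pow_succ, mul_comm]

lemma th_sq (m : ℕ) (t : K) : th' K m t = (th K m t) ^ 2 := by
  rw [th'_ap, th_ap, ← pow_mul, mul_comm]

variable {m : ℕ} (hK : Fintype.card K = 2 ^ (2 * m + 1))
include hK

lemma th_th' (t : K) : th K m (th' K m t) = t := by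
  rw [th'_ap, th_ap, ← pow_mul]
  have e : 2 * 2 ^ m * 2 ^ m = 2 ^ (2 * m + 1) := by ring
  rw [e, ← hK, FiniteField.pow_card]

lemma th'_th (t : K) : th' K m (th K m t) = t := by
  rw [th'_ap, th_ap, ← pow_mul]
  have e : 2 ^ m * (2 * 2 ^ m) = 2 ^ (2 * m + 1) := by ring
  rw [e, ← hK, FiniteField.pow_card]

end powers

section
variable {K : Type*} [Field K] [Fintype K] [CharP K 2]

lemma perfK : ∀ x : K, ∃ y : K, y ^ 2 = x := fun x => ⟨(powE K 1).symm x, by
  have := (powE K 1).apply_symm_apply x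
  rwa [powE_apply, pow_one] at this⟩

open Classical in
/-- the endomorphism -/
noncomputable def Sg (K : Type*) [Field K] [Fintype K] [CharP K 2] (m : ℕ) : SF checks K where
  bar := X.bar
  par := fun r => if X.lam r = 1 then th K m else th' K m
  f := fun g => if hg : g ∈ chevF4.group K then (xEquiv checks checks2 checks3 K xOK perfK ⟨glMap chevF4 (th K m) g, glMap_group checks _ g hg⟩).1 else g
  f_mem := by
    intro g hg
    rw [dif_pos hg]
    exact Subtype.coe_prop _
  f_mul := by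
    intro g h hg hh
    rw [dif_pos hg, dif_pos hh, dif_pos (mul_mem hg hh), ← Subgroup.coe_mul, ← map_mul]
    congr 2
    apply Subtype.ext
    simp
  f_x := by
    intro r hr t
    have hg := xG_mem_group (F := K) checks hr t
    rw [dif_pos hg]
    have e : (⟨glMap chevF4 (th K m) (xG checks r t), glMap_group checks _ _ hg⟩ : ↥(chevF4.group K)) = ⟨xG checks r (th K m t), xG_mem_group checks hr _⟩ :=
      Subtype.ext (glMap_xG checks _ r t)
    rw [e, xEquiv_x checks checks2 checks3 xOK perfK hr]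
    congr 1
    rcases xOK.lam r hr with h1 | h1
    · rw [h1, pow_one, if_pos rfl]
    · rw [h1, if_neg (by norm_num), th_sq]
  par_neg := by
    intro r hr
    simp only [(sft1 r hr).2.2.2.1]

lemma sg_bar (m : ℕ) : (Sg K m).bar = X.bar := rfl

lemma sftS (m : ℕ) : SFT chevF4 T (Sg K m).bar := sft

lemma par_two {m r : ℕ} (h : X.lam r = 2) : (Sg K m).par r = th' K m := by
  show (if X.lam r = 1 then th K m else th' K m) = _
  rw [if_neg (by rw [h]; norm_num)]

lemma par_one {m r : ℕ} (h : X.lam r = 1) : (Sg K m).par r = th K m := by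
  show (if X.lam r = 1 then th K m else th' K m) = _
  rw [if_pos h]

end

/-- the table conditions for a class of four roots -/
def QTab (a b c d : ℕ) : Prop :=
  a < 48 ∧ b < 48 ∧ c < 48 ∧ d < 48 ∧ X.bar a = b ∧ X.bar b = a ∧ X.bar c = d ∧ X.bar d = c ∧ X.lam a = 2 ∧ X.lam b = 1 ∧ X.lam c = 2 ∧ X.lam d = 1 ∧
  (b ≠ a ∧ b ≠ negF chevF4 a ∧ c ≠ a ∧ c ≠ negF chevF4 a ∧ d ≠ a ∧ d ≠ negF chevF4 a ∧ c ≠ b ∧ c ≠ negF chevF4 b ∧ d ≠ b ∧ d ≠ negF chevF4 b ∧ d ≠ c ∧ d ≠ negF chevF4 c) ∧
  (∀ e ∈ chevF4.commTerms a b, e.2.1 % 2 = 1) ∧ ((chevF4.commTerms a b).map (fun e => (e.1, e.2.2.1, e.2.2.2)) = [(c, 1, 1), (d, 2, 1)]) ∧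
  (∀ e ∈ chevF4.commTerms a c, e.2.1 % 2 = 0) ∧ (∀ e ∈ chevF4.commTerms a d, e.2.1 % 2 = 0) ∧ (∀ e ∈ chevF4.commTerms b c, e.2.1 % 2 = 0) ∧
  (∀ e ∈ chevF4.commTerms b d, e.2.1 % 2 = 0) ∧ (∀ e ∈ chevF4.commTerms c d, e.2.1 % 2 = 0)

noncomputable instance (a b c d : ℕ) : Decidable (QTab a b c d) := by unfold QTab; infer_instance

/-- the table conditions for a class of two roots -/
def PTab (r s : ℕ) : Prop :=
  r < 48 ∧ s < 48 ∧ X.bar r = s ∧ X.bar s = r ∧ X.lam r = 2 ∧ X.lam s = 1 ∧ s ≠ r ∧ s ≠ negF chevF4 r ∧ (∀ e ∈ chevF4.commTerms r s, e.2.1 % 2 = 0)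

noncomputable instance (r s : ℕ) : Decidable (PTab r s) := by unfold PTab; infer_instance

section
variable {K : Type*} [Field K] [Fintype K] [CharP K 2]

lemma QuadH_of {m a b c d : ℕ} (h : QTab a b c d) : QuadH (Sg K m) (th K m) (th' K m) a b c d := by
  obtain ⟨h1, h2, h3, h4, h5, h6, h7, h8, h9, h10, h11, h12, ⟨n1, n2, n3, n4, n5, n6, n7, n8, n9, n10, n11, n12⟩, h13, h14, h15, h16, h17, h18, h19⟩ := h
  have h1' : a < chevF4.nroots := h1
  have h2' : b < chevF4.nroots := h2
  have h3' : c < chevF4.nroots := h3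
  have h4' : d < chevF4.nroots := h4
  exact ⟨h1, h2, h3, h4, h5, h6, h7, h8, par_two h9, par_one h10, par_two h11, par_one h12,
    fun t u => xG_comm_two checks h1' h2' n1 n2 h13 h14 t u,
    fun t u => xG_comm_even checks h1' h3' n3 n4 h15 t u,
    fun t u => xG_comm_even checks h1' h4' n5 n6 h16 t u,
    fun t u => xG_comm_even checks h2' h3' n7 n8 h17 t u,
    fun t u => xG_comm_even checks h2' h4' n9 n10 h18 t u,
    fun t u => xG_comm_even checks h3' h4' n11 n12 h19 t u⟩

lemma PairH_of {m r s : ℕ} (h : PTab r s) : PairH (Sg K m) (th K m) (th' K m) r s := by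
  obtain ⟨h1, h2, h3, h4, h5, h6, n1, n2, h7⟩ := h
  have h1' : r < chevF4.nroots := h1
  have h2' : s < chevF4.nroots := h2
  exact ⟨h1, h2, h3, h4, par_two h5, par_one h6, fun t u => xG_comm_even checks h1' h2' n1 n2 h7 t u⟩

end

theorem qt0 : QTab 27 25 28 30 := by decide +kernel
theorem qt2 : QTab 35 31 40 46 := by decide +kernel
theorem qt4 : QTab 29 41 44 47 := by decide +kernel
theorem qt6 : QTab 34 26 36 42 := by decide +kernel
theorem qtm : QTab 20 22 19 17 := by decide +kernel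
theorem pt1 : PTab 37 32 := by decide +kernel
theorem pt3 : PTab 39 45 := by decide +kernel
theorem pt5 : PTab 38 43 := by decide +kernel
theorem pt7 : PTab 33 24 := by decide +kernel
theorem ptm : PTab 14 23 := by decide +kernel

/-- the first orbit of fundamental reflections -/
def J0 : List ℕ := [0, 3]
/-- the second orbit of fundamental reflections -/
def J1 : List ℕ := [1, 2, 1, 2]

theorem J0_lt : ∀ i ∈ J0, i < chevF4.rank := by decide
theorem J1_lt : ∀ i ∈ J1, i < chevF4.rank := by decide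

theorem n0_check : checkWords2 chevF4 T.P.col (ones [33, 14, 33, 24, 23, 24]) (ones [33, 24, 14, 23, 33, 24]) = true := by decide +kernel
theorem n1_check : checkWords2 chevF4 T.P.col (ones [27, 20, 27, 25, 22, 25, 27, 20, 27, 25, 22, 25]) (ones [27, 25, 28, 19, 17, 27, 25, 30]) = true := by decide +kernel

theorem stab (i : ℕ) (hi : i ∈ [0, 4, 6, 10, 12, 16, 18, 22, 24]) : ∀ r, r < 48 → 24 ≤ r → i ≤ lvl r → i ≤ lvl (X.bar r) := by
  revert i
  decide +kernel

section
variable {K : Type*} [Field K] [Fintype K] [CharP K 2]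

lemma ucs {m i : ℕ} (hi : i ∈ [0, 4, 6, 10, 12, 16, 18, 22, 24]) : UcStable checks (Sg K m) lvl i := fun s h1 h2 h3 => stab i hi s h2 h1 h3

/-- `n_r(1)` in characteristic two -/
lemma nG_one {r : ℕ} (hr : r < chevF4.nroots) : nG checks r (1 : K) = xG checks r 1 * xG checks (negF chevF4 r) 1 * xG checks r 1 := by
  unfold nG Cfsg.Lie.ChevalleyDatum.nWord
  simp only [wordG_cons, wordG_nil, mul_one, inv_one, CharTwo.neg_eq, mul_assoc]
  rw [show chevF4.neg r = negF chevF4 r from checks.neg r hr]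

variable {m : ℕ}

lemma mem_word {w : List (ℕ × K)} (hw : w ∈ f4Words K (2 ^ m)) : wordG checks w ∈ twistedF4 K (2 ^ m) :=
  Subgroup.subset_closure ⟨w, hw, wordG_val checks w⟩

lemma word_pair (r s : ℕ) (t : K) : wordG checks (f4PairWord (2 ^ m) r s t) = Ep checks (th K m) r s t := by
  simp only [f4PairWord, wordG_cons, wordG_nil, mul_one, Ep, th_ap]

lemma word_quad (a b c d : ℕ) (t u : K) : wordG checks (b2ClassWord (2 ^ m) a b c d t u) = Eq checks (th K m) (th' K m) a b c d t u := by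
  simp only [b2ClassWord, wordG_cons, wordG_nil, mul_one, Eq, QP, th_ap, pow_succ t (2 ^ m), mul_assoc]
  rw [show (2 : ℕ) ^ (m + 1) = 2 * 2 ^ m from by ring]

lemma Ep_GS (t : K) : Ep checks (th K m) 33 24 t ∈ twistedF4 K (2 ^ m) := by
  rw [← word_pair]
  exact mem_word (Or.inl ⟨t, Or.inl rfl⟩)

lemma EpN_GS (t : K) : Ep checks (th K m) 14 23 t ∈ twistedF4 K (2 ^ m) := by
  rw [← word_pair]
  exact mem_word (Or.inl ⟨t, Or.inr rfl⟩)

lemma Eq_GS (t u : K) : Eq checks (th K m) (th' K m) 27 25 28 30 t u ∈ twistedF4 K (2 ^ m) := by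
  rw [← word_quad]
  exact mem_word (Or.inr ⟨t, u, Or.inl rfl⟩)

lemma EqN_GS (t u : K) : Eq checks (th K m) (th' K m) 20 22 19 17 t u ∈ twistedF4 K (2 ^ m) := by
  rw [← word_quad]
  exact mem_word (Or.inr ⟨t, u, Or.inr rfl⟩)

/-- the first fundamental element lies in the group -/
theorem nJ0_GS : nWordG checks K J0 ∈ twistedF4 K (2 ^ m) := by
  have e : nWordG checks K J0 = Ep checks (th K m) 33 24 1 * Ep checks (th K m) 14 23 1 * Ep checks (th K m) 33 24 1 := by
    have h := ones_eq (K := K) checks n0_check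
    simp only [List.map_cons, List.map_nil, wordG_cons, wordG_nil, mul_one] at h
    rw [show J0 = [0, 3] from rfl, nWordG_cons, nWordG_cons, show nWordG checks K [] = 1 from rfl, mul_one]
    rw [show chevF4.simple 0 = 33 from rfl, show chevF4.simple 3 = 24 from rfl, nG_one (by decide), nG_one (by decide),
      show negF chevF4 33 = 14 from rfl, show negF chevF4 24 = 23 from rfl]
    simp only [Ep, map_one]
    simpa [mul_assoc] using h
  rw [e]
  exact mul_mem (mul_mem (Ep_GS _) (EpN_GS _)) (Ep_GS _)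

/-- the second fundamental element lies in the group -/
theorem nJ1_GS : nWordG checks K J1 ∈ twistedF4 K (2 ^ m) := by
  have e : nWordG checks K J1 = Eq checks (th K m) (th' K m) 27 25 28 30 1 0 * Eq checks (th K m) (th' K m) 20 22 19 17 0 1 * Eq checks (th K m) (th' K m) 27 25 28 30 1 1 := by
    have h := ones_eq (K := K) checks n1_check
    simp only [List.map_cons, List.map_nil, wordG_cons, wordG_nil, mul_one] at h
    rw [show J1 = [1, 2, 1, 2] from rfl, nWordG_cons, nWordG_cons, nWordG_cons, nWordG_cons, show nWordG checks K [] = 1 from rfl, mul_one]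
    rw [show chevF4.simple 1 = 27 from rfl, show chevF4.simple 2 = 25 from rfl, nG_one (by decide), nG_one (by decide),
      show negF chevF4 27 = 20 from rfl, show negF chevF4 25 = 22 from rfl]
    simp only [Eq, QP, map_one, map_zero, mul_one, mul_zero, add_zero, zero_add, xG_zero, one_mul, CharTwo.add_self_eq_zero]
    simpa [mul_assoc] using h
  rw [e]
  exact mul_mem (mul_mem (Eq_GS _ _) (EqN_GS _ _)) (Eq_GS _ _)

end

end Cfsg.Agent.H04.Tf.TF4
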