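import Cfsg.Agent.Lib.H04.Tf.ExpF

/-!
# A finite check for the involutions of the Sylow `2`-subgroup of `²F₄(2)`
-/

set_option autoImplicit false
set_option linter.style.longLine false
set_option maxRecDepth 100000

open Cfsg.Lie Cfsg.Agent.H04.Chev Cfsg.Agent.H04.Tw
open Cfsg.Agent.H04.Chev.TF4

namespace Cfsg.Agent.H04.Tf.TF4

/-- the coordinates of odd coefficient -/
noncomputable def maskOf (v : FV) : ℕ := List.rec (motive := fun _ => ℕ) 0 (fun x _ acc => Nat.xor acc (Nat.shiftLeft (Nat.land (Nat.add x.p x.n) 1) x.row)) v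

/-- select -/
noncomputable def sel (l : List (ℕ × Bool)) : List ℕ := List.rec (motive := fun _ => List ℕ) [] (fun x _ acc => Bool.rec acc (x.1 :: acc) x.2) l

/-- the word of a normal form -/
def WW (t0 u0 t1 t2 u2 t3 t4 u4 t5 t6 u6 t7 : Bool) : List (ℕ × Bool) :=
  [(27,t0),(25,t0),(28,xor t0 u0),(30,u0), (37,t1),(32,t1), (35,t2),(31,t2),(40,xor t2 u2),(46,u2), (39,t3),(45,t3), (29,t4),(41,t4),(44,xor t4 u4),(47,u4), (38,t5),(43,t5), (34,t6),(26,t6),(36,xor t6 u6),(42,u6), (33,t7),(24,t7)]

/-- the square of the word moves the basis vector `2` -/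
noncomputable def testW (l : List ℕ) : Bool :=
  Nat.ble 1 (Nat.land (Nat.shiftRight (maskOf (applyWord nfPlain T.P.col (ones (l ++ l)) (basisFV 2))) 3) 562949953421311)

/-- the conjunction over the booleans -/
def allB (f : Bool → Bool) : Bool := Bool.rec (f false) false (Bool.not (f true)) 

/-- the check on the normal forms with given first coordinates -/
noncomputable def chkA (t0 u0 t1 t2 : Bool) : Bool :=
  allB fun u2 => allB fun t3 => allB fun t4 => allB fun u4 => allB fun t5 => allB fun t6 => allB fun u6 => allB fun t7 =>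
    Bool.rec (true) (testW (sel (WW t0 u0 t1 t2 u2 t3 t4 u4 t5 t6 u6 t7))) (xor t0 (xor t2 (xor t4 t6)))

end Cfsg.Agent.H04.Tf.TF4
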