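import Cfsg.Agent.Lib.H04.Tf.InvT

/-!
# The involutions of `²F₄(2)` lie in the commutator subgroup
-/

set_option autoImplicit false
set_option linter.style.longLine false
set_option linter.unusedSimpArgs false
set_option linter.unusedSectionVars false
set_option linter.unusedVariables false
set_option maxRecDepth 100000
set_option synthInstance.maxHeartbeats 0
set_option synthInstance.maxSize 100000

open Cfsg.Lie Cfsg.Agent.H04.Chev Cfsg.Agent.H04.Tw
open Cfsg.Agent.H04.Chev.TF4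

namespace Cfsg.Agent.H04.Tf.TF4

lemma allB_spec {f : Bool → Bool} (h : allB f = true) (b : Bool) : f b = true := by
  unfold allB at h
  rcases h1 : f true with _ | _ <;> rcases h2 : f false with _ | _ <;> rw [h1] at h <;> simp_all
  all_goals (cases b <;> simp_all)

section Mask
variable {K : Type*} [Field K] [CharP K 2]

lemma maskOf_cons (x : FT) (xs : FV) : maskOf (x :: xs) = Nat.xor (maskOf xs) (Nat.shiftLeft (Nat.land (Nat.add x.p x.n) 1) x.row) := rfl

lemma maskOf_ev (v : FV) (k : ℕ) : FV.ev (1 : K) 1 v k = if (maskOf v).testBit k then 1 else 0 := by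
  induction v with
  | nil => simp [show maskOf [] = 0 from rfl]
  | cons x xs ih =>
    rw [FV.ev_cons, ih, maskOf_cons]
    have hm : Nat.land (Nat.add x.p x.n) 1 = (x.p + x.n) % 2 := by
      change (x.p + x.n) &&& 1 = _
      exact Nat.and_one_is_mod _
    rw [hm]
    have hval : x.val (1 : K) 1 = ((x.p : K) + x.n) := by
      unfold FT.val
      simp [CharTwo.sub_eq_add]
    rw [hval]
    rcases Nat.mod_two_eq_zero_or_one (x.p + x.n) with h0 | h1
    · rw [h0]
      have he : (x.p : K) + x.n = 0 := by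
        have : ((x.p + x.n : ℕ) : K) = 0 := by
          rw [CharP.cast_eq_zero_iff K 2]
          exact Nat.dvd_of_mod_eq_zero h0
        simpa using this
      rw [he]
      change _ = if (Nat.xor (maskOf xs) (0 <<< x.row)).testBit k then _ else _
      simp
    · rw [h1]
      have he : (x.p : K) + x.n = 1 := by
        have : ((x.p + x.n : ℕ) : K) = ((1 : ℕ) : K) := by
          rw [CharP.natCast_eq_natCast K 2]
          exact h1
        simpa using this
      rw [he]
      change _ = if ((maskOf xs) ^^^ (1 <<< x.row)).testBit k then _ else _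
      rw [Nat.one_shiftLeft, Nat.testBit_xor, Nat.testBit_two_pow]
      by_cases hk : x.row = k
      · rcases hb : (maskOf xs).testBit k with _ | _ <;> simp [hk, CharTwo.add_self_eq_zero]
      · rcases hb : (maskOf xs).testBit k with _ | _ <;> simp [hk]

end Mask

section Words
variable {K : Type*} [Field K] [CharP K 2]

lemma evW_ones1 (l : List ℕ) : evW (1 : K) 1 (ones l) = l.map fun r => (r, (1 : K)) := by
  induction l with
  | nil => rfl
  | cons a l ih => simp only [ones, List.map_cons, evW_cons, pmOne_val] at ih ⊢; rw [ih]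

/-- a word whose test succeeds does not square to one -/
theorem sq_ne_one {l : List ℕ} (hl : ∀ r ∈ l, r < 48) (ht : testW l = true) :
    wordG checks (l.map fun r => (r, (1 : K))) * wordG checks (l.map fun r => (r, (1 : K))) ≠ 1 := by
  intro h
  have h1 : wordG checks ((l ++ l).map fun r => (r, (1 : K))) = 1 := by
    rw [List.map_append, wordG_append]
    exact h
  have h2 : chevF4.wordMat K (evW (1 : K) 1 (ones (l ++ l))) = 1 := by
    rw [evW_ones1, ← wordG_val checks, h1, Units.val_one]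
  have hw : ∀ p ∈ ones (l ++ l), p.1 < chevF4.nroots := by
    intro p hp
    simp only [ones, List.mem_map] at hp
    obtain ⟨r, hr, rfl⟩ := hp
    rcases List.mem_append.mp hr with hr | hr
    · exact hl r hr
    · exact hl r hr
  set M := maskOf (applyWord nfPlain T.P.col (ones (l ++ l)) (basisFV 2)) with hM
  have h3 : Nat.land (Nat.shiftRight M 3) 562949953421311 ≠ 0 := by
    have h4 : Nat.ble 1 (Nat.land (Nat.shiftRight M 3) 562949953421311) = true := ht
    have h5 := Nat.le_of_ble_eq_true h4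
    omega
  obtain ⟨i, hi⟩ := Nat.exists_testBit_of_ne_zero h3
  have h6 : (M >>> 3 &&& (2 ^ 49 - 1)).testBit i = true := hi
  rw [Nat.testBit_land, Nat.testBit_shiftRight, Nat.testBit_two_pow_sub_one, Bool.and_eq_true] at h6
  obtain ⟨h7, h8⟩ := h6
  have h9 : i < 49 := by simpa using h8
  obtain ⟨row, hrow⟩ := exists_code chevF4 (c := 3 + i) (by show 3 + i < 48 + 4; omega)
  obtain ⟨j, hj⟩ := exists_code chevF4 (c := 2) (by show 2 < 48 + 4; omega)
  have h10 := wordMat_entry chevF4 nfPlain (1 : K) 1 (nfPlain_ev 1 1) T.P.col checks.col (ones (l ++ l)) hw row j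
  rw [h2, hj, hrow, maskOf_ev, ← hM, h7, if_pos rfl] at h10
  have hne : row ≠ j := by
    rintro rfl
    rw [hrow] at hj
    omega
  rw [Matrix.one_apply_ne hne] at h10
  exact zero_ne_one h10

/-- the field elements of a boolean -/
def bz (K : Type*) [Field K] (b : Bool) : K := if b then 1 else 0

lemma wordG_bz (ps : List (ℕ × Bool)) : wordG checks (ps.map fun p => (p.1, bz K p.2)) = wordG checks ((sel ps).map fun r => (r, (1 : K))) := by
  induction ps with
  | nil => rfl
  | cons p ps ih =>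
    obtain ⟨r, b⟩ := p
    cases b with
    | false =>
      have e : sel ((r, false) :: ps) = sel ps := rfl
      rw [e, ← ih, List.map_cons, wordG_cons]
      simp only [bz, Bool.false_eq_true, if_false]
      rw [xG_zero, one_mul]
    | true =>
      have e : sel ((r, true) :: ps) = r :: sel ps := rfl
      rw [e, List.map_cons, wordG_cons, List.map_cons, wordG_cons, ih]
      simp only [bz, if_true]

lemma sel_lt (ps : List (ℕ × Bool)) (h : ∀ p ∈ ps, p.1 < 48) : ∀ r ∈ sel ps, r < 48 := by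
  induction ps with
  | nil => intro r hr; exact absurd hr (by simp [show sel [] = [] from rfl])
  | cons p ps ih =>
    obtain ⟨q, b⟩ := p
    have h1 : q < 48 := h _ List.mem_cons_self
    have h2 := ih (fun p hp => h p (List.mem_cons_of_mem _ hp))
    cases b with
    | false => exact h2
    | true =>
      intro r hr
      have e : sel ((q, true) :: ps) = q :: sel ps := rfl
      rw [e] at hr
      rcases List.mem_cons.mp hr with rfl | hr
      · exact h1
      · exact h2 r hr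

lemma WW_lt (t0 u0 t1 t2 u2 t3 t4 u4 t5 t6 u6 t7 : Bool) : ∀ p ∈ WW t0 u0 t1 t2 u2 t3 t4 u4 t5 t6 u6 t7, p.1 < 48 := by
  intro p hp
  simp only [WW, List.mem_cons, List.not_mem_nil, or_false] at hp
  rcases hp with rfl | rfl | rfl | rfl | rfl | rfl | rfl | rfl | rfl | rfl | rfl | rfl | rfl | rfl | rfl | rfl | rfl | rfl | rfl | rfl | rfl | rfl | rfl | rfl <;> norm_num

/-- the check on the normal forms -/
theorem sq_ne_WW (t0 u0 t1 t2 u2 t3 t4 u4 t5 t6 u6 t7 : Bool) (hs : xor t0 (xor t2 (xor t4 t6)) = true) :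
    wordG checks ((WW t0 u0 t1 t2 u2 t3 t4 u4 t5 t6 u6 t7).map fun p => (p.1, bz K p.2)) * wordG checks ((WW t0 u0 t1 t2 u2 t3 t4 u4 t5 t6 u6 t7).map fun p => (p.1, bz K p.2)) ≠ 1 := by
  rw [wordG_bz]
  apply sq_ne_one (sel_lt _ (WW_lt _ _ _ _ _ _ _ _ _ _ _ _))
  have h := chkA_true t0 u0 t1 t2
  unfold chkA at h
  have h1 := allB_spec (allB_spec (allB_spec (allB_spec (allB_spec (allB_spec (allB_spec (allB_spec h u2) t3) t4) u4) t5) t6) u6) t7
  simp only [hs] at h1
  exact h1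

end Words

section Nf
variable {K : Type*} [Field K] [Fintype K] [CharP K 2] {m : ℕ}
variable (hK : Fintype.card K = 2 ^ (2 * m + 1))
include hK

/-- the normal form of an element of the Sylow subgroup -/
theorem nfF {g : GL chevF4.Idx K} (hg : g ∈ FF checks (Sg K m) lvl 0) :
    ∃ t0 u0 t1 t2 u2 t3 t4 u4 t5 t6 u6 t7 : K, g = Eq checks (th K m) (th' K m) 27 25 28 30 t0 u0 * (Ep checks (th K m) 37 32 t1 * (Eq checks (th K m) (th' K m) 35 31 40 46 t2 u2 * (Ep checks (th K m) 39 45 t3 *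
      (Eq checks (th K m) (th' K m) 29 41 44 47 t4 u4 * (Ep checks (th K m) 38 43 t5 * (Eq checks (th K m) (th' K m) 34 26 36 42 t6 u6 * Ep checks (th K m) 33 24 t7)))))) := by
  obtain ⟨t0, u0, g1, h1, rfl⟩ := quad_step checks checks2 checks3 clw (sftS m) (i := 0) (by decide) (QuadH_of qt0) rfl rfl rfl rfl (ucs (by decide)) (th'_th hK) (th_th' hK) hg
  obtain ⟨t1, g2, h2, rfl⟩ := pair_step checks checks2 checks3 clw (sftS m) (i := 4) (by decide) (PairH_of pt1) rfl rfl (ucs (by decide)) h1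
  obtain ⟨t2, u2, g3, h3, rfl⟩ := quad_step checks checks2 checks3 clw (sftS m) (i := 6) (by decide) (QuadH_of qt2) rfl rfl rfl rfl (ucs (by decide)) (th'_th hK) (th_th' hK) h2
  obtain ⟨t3, g4, h4, rfl⟩ := pair_step checks checks2 checks3 clw (sftS m) (i := 10) (by decide) (PairH_of pt3) rfl rfl (ucs (by decide)) h3
  obtain ⟨t4, u4, g5, h5, rfl⟩ := quad_step checks checks2 checks3 clw (sftS m) (i := 12) (by decide) (QuadH_of qt4) rfl rfl rfl rfl (ucs (by decide)) (th'_th hK) (th_th' hK) h4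
  obtain ⟨t5, g6, h6, rfl⟩ := pair_step checks checks2 checks3 clw (sftS m) (i := 16) (by decide) (PairH_of pt5) rfl rfl (ucs (by decide)) h5
  obtain ⟨t6, u6, g7, h7, rfl⟩ := quad_step checks checks2 checks3 clw (sftS m) (i := 18) (by decide) (QuadH_of qt6) rfl rfl rfl rfl (ucs (by decide)) (th'_th hK) (th_th' hK) h6
  obtain ⟨t7, g8, h8, rfl⟩ := pair_step checks checks2 checks3 clw (sftS m) (i := 22) (by decide) (PairH_of pt7) rfl rfl (ucs (by decide)) h7
  have e : g8 = 1 := by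
    have : g8 ∈ FF checks (Sg K m) lvl 24 := h8
    rw [FF_top] at this
    exact this
  rw [e, mul_one]
  exact ⟨t0, u0, t1, t2, u2, t3, t4, u4, t5, t6, u6, t7, rfl⟩

end Nf

section Two

/-- the field with two elements -/
abbrev K2 : Type := ZMod 2

lemma card2 : Fintype.card K2 = 2 ^ (2 * 0 + 1) := ZMod.card 2

/-- the group `²F₄(2)` -/
abbrev G2 : Type := ↥(GS K2 0)

lemma th_two (t : K2) : th K2 0 t = t := by
  rw [th_ap]
  simp

lemma th'_two (t : K2) : th' K2 0 t = t := by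
  rw [th'_ap]
  revert t
  decide

lemma bz_sur (t : K2) : ∃ b, bz K2 b = t := by
  revert t
  decide

lemma Ep_bz (r s : ℕ) (b : Bool) : Ep checks (th K2 0) r s (bz K2 b) = wordG checks [(r, bz K2 b), (s, bz K2 b)] := by
  simp [Ep, th_two]

lemma Eq_bz (a b c d : ℕ) (t u : Bool) : Eq checks (th K2 0) (th' K2 0) a b c d (bz K2 t) (bz K2 u) = wordG checks [(a, bz K2 t), (b, bz K2 t), (c, bz K2 (xor t u)), (d, bz K2 u)] := by
  have e : (bz K2 t) * (bz K2 t) + bz K2 u = bz K2 (xor t u) := by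
    revert t u
    decide
  simp [Eq, QP, th_two, th'_two, e, mul_assoc]

lemma nf_word (t0 u0 t1 t2 u2 t3 t4 u4 t5 t6 u6 t7 : Bool) :
    Eq checks (th K2 0) (th' K2 0) 27 25 28 30 (bz K2 t0) (bz K2 u0) * (Ep checks (th K2 0) 37 32 (bz K2 t1) * (Eq checks (th K2 0) (th' K2 0) 35 31 40 46 (bz K2 t2) (bz K2 u2) * (Ep checks (th K2 0) 39 45 (bz K2 t3) *
      (Eq checks (th K2 0) (th' K2 0) 29 41 44 47 (bz K2 t4) (bz K2 u4) * (Ep checks (th K2 0) 38 43 (bz K2 t5) * (Eq checks (th K2 0) (th' K2 0) 34 26 36 42 (bz K2 t6) (bz K2 u6) * Ep checks (th K2 0) 33 24 (bz K2 t7)))))))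
    = wordG checks ((WW t0 u0 t1 t2 u2 t3 t4 u4 t5 t6 u6 t7).map fun p => (p.1, bz K2 p.2)) := by
  simp only [Eq_bz, Ep_bz, WW, List.map_cons, List.map_nil, wordG_cons, wordG_nil, mul_one, mul_assoc]

/-- the elements of the classes in the group -/
noncomputable def e0 (t u : K2) : G2 := ⟨_, E0 t u⟩
noncomputable def e1 (t : K2) : G2 := ⟨_, E1 t⟩
noncomputable def e2 (t u : K2) : G2 := ⟨_, E2 t u⟩
noncomputable def e3 (t : K2) : G2 := ⟨_, E3 t⟩
noncomputable def e4 (t u : K2) : G2 := ⟨_, E4 t u⟩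
noncomputable def e5 (t : K2) : G2 := ⟨_, E5 t⟩
noncomputable def e6 (t u : K2) : G2 := ⟨_, E6 t u⟩
noncomputable def e7 (t : K2) : G2 := ⟨_, E7 t⟩

/-- the map to the abelianization -/
noncomputable abbrev ab : G2 →* Abelianization G2 := Abelianization.of

lemma ab_conj (n x : G2) : ab (n * x * n⁻¹) = ab x := by
  rw [map_mul, map_mul, map_inv, mul_comm (ab n), mul_inv_cancel_right]

/-- the two Weyl elements in the group -/
noncomputable def nn0 : G2 := ⟨nWordG checks K2 J0, nJ0_GS⟩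
noncomputable def nn1 : G2 := ⟨nWordG checks K2 J1, nJ1_GS⟩

lemma c17 (t : K2) : ab (e1 t) = ab (e7 t) := by
  have h := conj_Ep checks (conjJ1 (K := K2)) (r := 33) (s := 24) (by decide) (by decide) (th K2 0) t
  rw [show applyW chevF4 T J1 33 = 37 from congrArg Prod.fst ap_J1_7, show applyW chevF4 T J1 24 = 32 from congrArg Prod.snd ap_J1_7] at h
  have h1 : nn1 * e7 t * nn1⁻¹ = e1 t := Subtype.ext h
  rw [← h1, ab_conj]

lemma c06 (t u : K2) : ab (e6 t u) = ab (e0 t u) := by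
  have h := conj_QP checks (conjJ0 (K := K2)) (a := 27) (b := 25) (c := 28) (d := 30) (by decide) (by decide) (by decide) (by decide) (th K2 0 t) t (th K2 0 t * t + u) (th' K2 0 u)
  have e := ap_J0_0
  simp only [Prod.mk.injEq] at e
  rw [e.1, e.2.1, e.2.2.1, e.2.2.2] at h
  have h1 : nn0 * e0 t u * nn0⁻¹ = e6 t u := Subtype.ext h
  rw [← h1, ab_conj]

lemma c62 (t u : K2) : ab (e2 t u) = ab (e6 t u) := by
  have h := conj_QP checks (conjJ1 (K := K2)) (a := 34) (b := 26) (c := 36) (d := 42) (by decide) (by decide) (by decide) (by decide) (th K2 0 t) t (th K2 0 t * t + u) (th' K2 0 u)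
  have e := ap_J1_6
  simp only [Prod.mk.injEq] at e
  rw [e.1, e.2.1, e.2.2.1, e.2.2.2] at h
  have h1 : nn1 * e6 t u * nn1⁻¹ = e2 t u := Subtype.ext h
  rw [← h1, ab_conj]

lemma c24 (t u : K2) : ab (e4 t u) = ab (e2 t u) := by
  have h := conj_QP checks (conjJ0 (K := K2)) (a := 35) (b := 31) (c := 40) (d := 46) (by decide) (by decide) (by decide) (by decide) (th K2 0 t) t (th K2 0 t * t + u) (th' K2 0 u)
  have e := ap_J0_2
  simp only [Prod.mk.injEq] at e
  rw [e.1, e.2.1, e.2.2.1, e.2.2.2] at h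
  have h1 : nn0 * e2 t u * nn0⁻¹ = e4 t u := Subtype.ext h
  rw [← h1, ab_conj]

/-! the values at the parameters `(1, 0)` and `(0, 1)` -/

lemma w10 (a b c d : ℕ) (hd : d < 48) : Eq checks (th K2 0) (th' K2 0) a b c d 1 0 = wordG checks ([a, b, c].map fun r => (r, (1 : K2))) := by
  simp only [Eq, QP, th_two, th'_two, List.map_cons, List.map_nil, wordG_cons, wordG_nil, mul_one, add_zero, xG_zero, mul_assoc]

lemma w01 (a b c d : ℕ) : Eq checks (th K2 0) (th' K2 0) a b c d 0 1 = wordG checks ([c, d].map fun r => (r, (1 : K2))) := by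
  simp only [Eq, QP, th_two, th'_two, List.map_cons, List.map_nil, wordG_cons, wordG_nil, mul_one, mul_zero, zero_add, xG_zero, one_mul, mul_assoc]

lemma wp (r s : ℕ) : Ep checks (th K2 0) r s 1 = wordG checks ([r, s].map fun r => (r, (1 : K2))) := by
  simp only [Ep, th_two, List.map_cons, List.map_nil, wordG_cons, wordG_nil, mul_one]

lemma wmul (l l' : List ℕ) : wordG checks (l.map fun r => (r, (1 : K2))) * wordG checks (l'.map fun r => (r, (1 : K2))) = wordG checks ((l ++ l').map fun r => (r, (1 : K2))) := by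
  rw [List.map_append, wordG_append]

theorem r1 : checkWords2 chevF4 T.P.col (ones ([27, 25, 28] ++ [35, 31, 40])) (ones ([37, 32] ++ ([35, 31, 40] ++ [27, 25, 28]))) = true := by decide +kernel
theorem r3 : checkWords2 chevF4 T.P.col (ones ([35, 31, 40] ++ [29, 41, 44])) (ones ([39, 45] ++ ([29, 41, 44] ++ [35, 31, 40]))) = true := by decide +kernel
theorem r5 : checkWords2 chevF4 T.P.col (ones ([29, 41, 44] ++ [34, 26, 36])) (ones ([38, 43] ++ ([34, 26, 36] ++ [29, 41, 44]))) = true := by decide +kernel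
theorem r6 : checkWords2 chevF4 T.P.col (ones ([29, 41, 44] ++ [33, 24])) (ones ([36, 42] ++ ([33, 24] ++ [29, 41, 44]))) = true := by decide +kernel
theorem rs : checkWords2 chevF4 T.P.col (ones ([27, 25, 28] ++ [27, 25, 28])) (ones [28, 30]) = true := by decide +kernel

/-- a relation `x y = z y x` kills `z` in the abelianization -/
lemma ab_rel {x y z : G2} (h : x * y = z * y * x) : ab z = 1 := by
  have h1 := congrArg ab h
  rw [map_mul, map_mul, map_mul] at h1
  have h2 : ab z * (ab y * ab x) = 1 * (ab y * ab x) := by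
    rw [one_mul, ← mul_assoc, ← h1, mul_comm]
  exact mul_right_cancel h2

lemma ab_e1 : ab (e1 1) = 1 := by
  apply ab_rel (x := e0 1 0) (y := e2 1 0)
  apply Subtype.ext
  show Eq checks _ _ _ _ _ _ 1 0 * Eq checks _ _ _ _ _ _ 1 0 = Ep checks _ _ _ 1 * Eq checks _ _ _ _ _ _ 1 0 * Eq checks _ _ _ _ _ _ 1 0
  rw [w10 _ _ _ _ (by norm_num), w10 _ _ _ _ (by norm_num), wp, wmul, mul_assoc, wmul, wmul]
  exact ones_eq checks r1

lemma ab_e3 : ab (e3 1) = 1 := by
  apply ab_rel (x := e2 1 0) (y := e4 1 0)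
  apply Subtype.ext
  show Eq checks _ _ _ _ _ _ 1 0 * Eq checks _ _ _ _ _ _ 1 0 = Ep checks _ _ _ 1 * Eq checks _ _ _ _ _ _ 1 0 * Eq checks _ _ _ _ _ _ 1 0
  rw [w10 _ _ _ _ (by norm_num), w10 _ _ _ _ (by norm_num), wp, wmul, mul_assoc, wmul, wmul]
  exact ones_eq checks r3

lemma ab_e5 : ab (e5 1) = 1 := by
  apply ab_rel (x := e4 1 0) (y := e6 1 0)
  apply Subtype.ext
  show Eq checks _ _ _ _ _ _ 1 0 * Eq checks _ _ _ _ _ _ 1 0 = Ep checks _ _ _ 1 * Eq checks _ _ _ _ _ _ 1 0 * Eq checks _ _ _ _ _ _ 1 0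
  rw [w10 _ _ _ _ (by norm_num), w10 _ _ _ _ (by norm_num), wp, wmul, mul_assoc, wmul, wmul]
  exact ones_eq checks r5

lemma ab_e6 : ab (e6 0 1) = 1 := by
  apply ab_rel (x := e4 1 0) (y := e7 1)
  apply Subtype.ext
  show Eq checks _ _ _ _ _ _ 1 0 * Ep checks _ _ _ 1 = Eq checks _ _ _ _ _ _ 0 1 * Ep checks _ _ _ 1 * Eq checks _ _ _ _ _ _ 1 0
  rw [w10 _ _ _ _ (by norm_num), w01, wp, wmul, mul_assoc, wmul, wmul]
  exact ones_eq checks r6

lemma e0_sq : e0 1 0 * e0 1 0 = e0 0 1 := by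
  apply Subtype.ext
  show Eq checks _ _ _ _ _ _ 1 0 * Eq checks _ _ _ _ _ _ 1 0 = Eq checks _ _ _ _ _ _ 0 1
  rw [w10 _ _ _ _ (by norm_num), w01, wmul]
  exact ones_eq checks rs

lemma e0_split : e0 1 1 = e0 1 0 * e0 0 1 := by
  apply Subtype.ext
  show Eq checks _ _ _ _ _ _ 1 1 = Eq checks _ _ _ _ _ _ 1 0 * Eq checks _ _ _ _ _ _ 0 1
  simp only [Eq, QP, th_two, th'_two, mul_one, mul_zero, zero_add, add_zero, xG_zero, one_mul, mul_assoc]
  rw [← mul_assoc (xG checks 28 (1 : K2)), xG_add, show ((1 : K2) + 1) = 0 from by decide]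

lemma e0_zero : e0 0 0 = 1 := by
  apply Subtype.ext
  show Eq checks _ _ _ _ _ _ 0 0 = 1
  simp only [Eq, QP, th_two, th'_two, mul_zero, add_zero, xG_zero, one_mul, mul_one]

/-- the generator of the abelianization -/
noncomputable def aE : Abelianization G2 := ab (e0 1 0)

lemma ab_e0_01 : ab (e0 0 1) = 1 := by
  rw [← c06]
  exact ab_e6

lemma aE_sq : aE * aE = 1 := by
  unfold aE
  rw [← map_mul, e0_sq, ab_e0_01]

lemma ab_e0 (t u : K2) : ab (e0 t u) = aE ^ t.val := by
  revert t u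
  have h00 : ab (e0 0 0) = aE ^ (0 : K2).val := by
    rw [e0_zero, map_one]
    exact (pow_zero _).symm
  have h01 : ab (e0 0 1) = aE ^ (0 : K2).val := by
    rw [ab_e0_01]
    exact (pow_zero _).symm
  have h10 : ab (e0 1 0) = aE ^ (1 : K2).val := (pow_one _).symm
  have h11 : ab (e0 1 1) = aE ^ (1 : K2).val := by
    rw [e0_split, map_mul, ab_e0_01, mul_one]
    exact (pow_one _).symm
  intro t u
  have ht : t = 0 ∨ t = 1 := by revert t; decide
  have hu : u = 0 ∨ u = 1 := by revert u; decide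
  rcases ht with rfl | rfl <;> rcases hu with rfl | rfl
  · exact h00
  · exact h01
  · exact h10
  · exact h11

lemma e1_zero : e1 0 = 1 := Subtype.ext (by
  show Ep checks _ _ _ 0 = 1
  simp only [Ep, th_two, xG_zero, one_mul])

lemma e3_zero : e3 0 = 1 := Subtype.ext (by
  show Ep checks _ _ _ 0 = 1
  simp only [Ep, th_two, xG_zero, one_mul])

lemma e5_zero : e5 0 = 1 := Subtype.ext (by
  show Ep checks _ _ _ 0 = 1
  simp only [Ep, th_two, xG_zero, one_mul])

lemma ab_e1' (t : K2) : ab (e1 t) = 1 := by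
  have ht : t = 0 ∨ t = 1 := by revert t; decide
  rcases ht with rfl | rfl
  · rw [e1_zero, map_one]
  · exact ab_e1

lemma ab_e3' (t : K2) : ab (e3 t) = 1 := by
  have ht : t = 0 ∨ t = 1 := by revert t; decide
  rcases ht with rfl | rfl
  · rw [e3_zero, map_one]
  · exact ab_e3

lemma ab_e5' (t : K2) : ab (e5 t) = 1 := by
  have ht : t = 0 ∨ t = 1 := by revert t; decide
  rcases ht with rfl | rfl
  · rw [e5_zero, map_one]
  · exact ab_e5

lemma ab_e7' (t : K2) : ab (e7 t) = 1 := by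
  rw [← c17, ab_e1']

lemma ab_e2' (t u : K2) : ab (e2 t u) = aE ^ t.val := by rw [c62, c06, ab_e0]
lemma ab_e4' (t u : K2) : ab (e4 t u) = aE ^ t.val := by rw [c24, c62, c06, ab_e0]
lemma ab_e6' (t u : K2) : ab (e6 t u) = aE ^ t.val := by rw [c06, ab_e0]

lemma par_even : ∀ t0 t2 t4 t6 : K2, t0 + t2 + t4 + t6 = 0 → 2 ∣ t0.val + t2.val + t4.val + t6.val := by decide

lemma par_bz : ∀ t0 t2 t4 t6 : Bool, ¬ (bz K2 t0 + bz K2 t2 + bz K2 t4 + bz K2 t6 = 0) → xor t0 (xor t2 (xor t4 t6)) = true := by decide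

set_option maxHeartbeats 2000000 in
/-- an involution of the Sylow subgroup lies in the commutator subgroup -/
theorem mem_comm_of_U {y : G2} (hU : y.1 ∈ chevF4.posUnipotent K2) (hy : y * y = 1) : y ∈ commutator G2 := by
  have h0 : y.1 ∈ FF checks (Sg K2 0) lvl 0 := by
    rw [FF0_eq, ← U_inf card2]
    exact ⟨hU, y.2⟩
  obtain ⟨t0, u0, t1, t2, u2, t3, t4, u4, t5, t6, u6, t7, e⟩ := nfF card2 h0
  obtain ⟨bt0, rfl⟩ := bz_sur t0
  obtain ⟨bu0, rfl⟩ := bz_sur u0
  obtain ⟨bt1, rfl⟩ := bz_sur t1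
  obtain ⟨bt2, rfl⟩ := bz_sur t2
  obtain ⟨bu2, rfl⟩ := bz_sur u2
  obtain ⟨bt3, rfl⟩ := bz_sur t3
  obtain ⟨bt4, rfl⟩ := bz_sur t4
  obtain ⟨bu4, rfl⟩ := bz_sur u4
  obtain ⟨bt5, rfl⟩ := bz_sur t5
  obtain ⟨bt6, rfl⟩ := bz_sur t6
  obtain ⟨bu6, rfl⟩ := bz_sur u6
  obtain ⟨bt7, rfl⟩ := bz_sur t7
  have hs : bz K2 bt0 + bz K2 bt2 + bz K2 bt4 + bz K2 bt6 = 0 := by
    by_contra hne
    refine sq_ne_WW (K := K2) bt0 bu0 bt1 bt2 bu2 bt3 bt4 bu4 bt5 bt6 bu6 bt7 (par_bz _ _ _ _ hne) ?_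
    rw [← nf_word, ← e]
    have h := congrArg Subtype.val hy
    rw [Subgroup.coe_mul, Subgroup.coe_one] at h
    exact h
  have e2 : y = e0 (bz K2 bt0) (bz K2 bu0) * (e1 (bz K2 bt1) * (e2 (bz K2 bt2) (bz K2 bu2) * (e3 (bz K2 bt3) * (e4 (bz K2 bt4) (bz K2 bu4) * (e5 (bz K2 bt5) * (e6 (bz K2 bt6) (bz K2 bu6) * e7 (bz K2 bt7))))))) := by
    apply Subtype.ext
    simp only [Subgroup.coe_mul]
    exact e
  rw [← Abelianization.ker_of, MonoidHom.mem_ker]
  change ab y = 1
  rw [e2]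
  simp only [map_mul]
  rw [ab_e0, ab_e1', ab_e2', ab_e3', ab_e4', ab_e5', ab_e6', ab_e7']
  simp only [one_mul, mul_one]
  rw [← pow_add, ← pow_add, ← pow_add]
  obtain ⟨k, hk⟩ := par_even _ _ _ _ hs
  have e3 : (bz K2 bt0).val + ((bz K2 bt2).val + ((bz K2 bt4).val + (bz K2 bt6).val)) = 2 * k := by omega
  rw [e3, pow_mul, pow_two, aE_sq, one_pow]

/-- **S2185** -/
theorem invol_comm (g : G2) (hg : orderOf g = 2) : g ∈ commutator G2 := by
  obtain ⟨S, hS⟩ := U_sylow card2
  have hz : IsPGroup 2 (Subgroup.zpowers g) := by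
    apply IsPGroup.of_card (n := 1)
    rw [Nat.card_zpowers, hg, pow_one]
  obtain ⟨Q, hQ⟩ := hz.exists_le_sylow
  obtain ⟨h, rfl⟩ := MulAction.exists_smul_eq G2 S Q
  have hxQ : g ∈ ((h • S : Sylow 2 G2) : Subgroup G2) := hQ (Subgroup.mem_zpowers g)
  rw [Sylow.coe_subgroup_smul, Subgroup.mem_pointwise_smul_iff_inv_smul_mem, hS, Subgroup.mem_subgroupOf, MulAut.smul_def] at hxQ
  have h1 := (Subgroup.mem_inf.mp hxQ).1
  have hg2 : g * g = 1 := by
    have := pow_orderOf_eq_one g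
    rw [hg, pow_two] at this
    exact this
  have h2 : ((MulAut.conj h)⁻¹ g) * ((MulAut.conj h)⁻¹ g) = 1 := by
    rw [← map_mul, hg2, map_one]
  have h3 := mem_comm_of_U h1 h2
  have h4 : g = h * ((MulAut.conj h)⁻¹ g) * h⁻¹ := by
    rw [MulAut.conj_inv_apply]
    group
  rw [h4]
  exact (inferInstance : (commutator G2).Normal).conj_mem _ h3 h

end Two

end Cfsg.Agent.H04.Tf.TF4
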