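import Cfsg.Agent.Lib.H04.Tf.InvT00
import Cfsg.Agent.Lib.H04.Tf.InvT01
import Cfsg.Agent.Lib.H04.Tf.InvT10
import Cfsg.Agent.Lib.H04.Tf.InvT11

/-!
# A finite check for the involutions of the Sylow `2`-subgroup of `²F₄(2)`
-/

set_option autoImplicit false

namespace Cfsg.Agent.H04.Tf.TF4

theorem chkA_true (t0 u0 t1 t2 : Bool) : chkA t0 u0 t1 t2 = true := by
  cases t0 <;> cases u0 <;> cases t1 <;> cases t2
  · exact chkA_0000
  · exact chkA_0001
  · exact chkA_0010
  · exact chkA_0011
  · exact chkA_0100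
  · exact chkA_0101
  · exact chkA_0110
  · exact chkA_0111
  · exact chkA_1000
  · exact chkA_1001
  · exact chkA_1010
  · exact chkA_1011
  · exact chkA_1100
  · exact chkA_1101
  · exact chkA_1110
  · exact chkA_1111

end Cfsg.Agent.H04.Tf.TF4
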