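import Cfsg.Agent.Lib.H04.Tf.InvD

/-!
# A finite check for the involutions of the Sylow `2`-subgroup of `²F₄(2)`: part 00
-/

set_option autoImplicit false
set_option linter.style.longLine false
set_option maxRecDepth 100000

open Cfsg.Lie Cfsg.Agent.H04.Chev Cfsg.Agent.H04.Tw
open Cfsg.Agent.H04.Chev.TF4

namespace Cfsg.Agent.H04.Tf.TF4

set_option maxHeartbeats 0 in
theorem chkA_0000 : chkA false false false false = true := by decide +kernel

set_option maxHeartbeats 0 in
theorem chkA_0001 : chkA false false false true = true := by decide +kernel

set_option maxHeartbeats 0 in
theorem chkA_0010 : chkA false false true false = true := by decide +kernel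

set_option maxHeartbeats 0 in
theorem chkA_0011 : chkA false false true true = true := by decide +kernel

end Cfsg.Agent.H04.Tf.TF4
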