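import Cfsg.Agent.Lib.H04.Tf.HF
import Cfsg.Agent.Lib.H04.Chev.Coxeter

/-!
# The fixed points in the monomial subgroup, and in the group, for `²F₄`
-/

set_option autoImplicit false
set_option linter.style.longLine false
set_option linter.unusedSimpArgs false
set_option linter.unusedSectionVars false
set_option linter.unusedVariables false
set_option maxRecDepth 100000

open Cfsg.Lie Cfsg.Agent.H04.Chev Cfsg.Agent.H04.Tw
open Cfsg.Agent.H04.Chev.TF4

namespace Cfsg.Agent.H04.Tf

variable {D : ChevalleyDatum} {T : Tabs} {U : Tabs3}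

section
variable (C : Checks D T) (C2 : Checks2 D T) (C3 : Checks3 D T U)

include C2 C3 in
/-- a Weyl group element negative on a set of fundamental roots -/
lemma word_neg_of {w : Equiv.Perm (Fin D.nroots)} (hw : w ∈ WW C) {J : Set ℕ}
    (h : ∀ s ∈ J, ∀ hs : s < D.rank, ((w ⟨D.simple s, C.simple_lt s hs⟩ : Fin D.nroots) : ℕ) < D.nroots / 2)
    {t : Fin D.nroots} (h0 : D.nroots / 2 ≤ t.1) (hsup : ∀ j, j < D.rank → j ∉ J → U.cofI t.1 j = 0) :
    ((w t : Fin D.nroots) : ℕ) < D.nroots / 2 := by
  by_contra hpos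
  have hpos' : D.nroots / 2 ≤ ((w t : Fin D.nroots) : ℕ) := not_lt.mp hpos
  have hlt := (w t).2
  have hn : negF D ((w t : Fin D.nroots) : ℕ) < D.nroots / 2 := negF_neg C2 hpos' hlt
  have hp : D.nroots / 2 ≤ negF D ((w t : Fin D.nroots) : ℕ) := by
    apply pos_of_nonneg C C2 C3 (negF_lt hlt)
    intro j hj
    rw [C3.cof_neg _ hlt j hj, cof_perm_linear C C3 hw t hj]
    have : (∑ i ∈ Finset.range D.rank, U.cofI t.1 i * U.cofI (piOf w (D.simple i)) j) ≤ 0 := by
      apply Finset.sum_nonpos
      intro i hi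
      have hi' := Finset.mem_range.mp hi
      by_cases hiJ : i ∈ J
      · have h1 := h i hiJ hi'
        have hp := C.simple_lt i hi'
        have h2 : piOf w (D.simple i) < D.nroots / 2 := by
          rw [piOf_apply w ⟨D.simple i, hp⟩]
          exact h1
        have h3 : piOf w (D.simple i) < D.nroots := by
          rw [piOf_apply w ⟨D.simple i, hp⟩]
          exact (w _).2
        have h4 := C3.cof_pos _ (negF_pos C2 h2) (negF_lt h3) j hj
        rw [C3.cof_neg _ h3 j hj] at h4
        exact mul_nonpos_of_nonneg_of_nonpos (C3.cof_pos _ h0 t.2 i hi') (by omega)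
      · rw [hsup i hi' hiJ, zero_mul]
    omega
  omega

/-- the check of the steps of a word -/
noncomputable def stepsOK (D : ChevalleyDatum) (T : Tabs) (U : Tabs3) (J : ℕ → Prop) : List ℕ → List ℕ → Prop
  | _, [] => True
  | p, c :: l => (c < D.rank ∧ J c) ∧ D.nroots / 2 ≤ applyW D T p (D.simple c) ∧ (∀ j, j < D.rank → ¬ J j → U.cofI (applyW D T p (D.simple c)) j = 0) ∧ stepsOK D T U J (p ++ [c]) l

include C2 C3 in
/-- the number of inversions after multiplying with a word -/
theorem invP_steps {J : ℕ → Prop} {w : Equiv.Perm (Fin D.nroots)} (hw : w ∈ WW C)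
    (h : ∀ s, J s → ∀ hs : s < D.rank, ((w ⟨D.simple s, C.simple_lt s hs⟩ : Fin D.nroots) : ℕ) < D.nroots / 2) (l : List ℕ) :
    ∀ p : List ℕ, (∀ i ∈ p, i < D.rank) → stepsOK D T U J p l → invP (w * wordP C (p ++ l)) + l.length = invP (w * wordP C p) := by
  induction l with
  | nil => intro p _ _; simp
  | cons c l ih =>
    intro p hp hs
    obtain ⟨⟨hc, hJc⟩, h1, h2, h3⟩ := hs
    have hpc : ∀ i ∈ p ++ [c], i < D.rank := by
      intro i hi
      rcases List.mem_append.mp hi with hi | hi
      · exact hp i hi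
      · rw [List.mem_singleton] at hi
        rw [hi]
        exact hc
    have hs1 := C.simple_lt c hc
    have hmem : w * wordP C p ∈ WW C := mul_mem hw (wordP_mem C (J := {i | i < D.rank}) hp)
    have hneg : (((w * wordP C p) ⟨D.simple c, hs1⟩ : Fin D.nroots) : ℕ) < D.nroots / 2 := by
      rw [Equiv.Perm.mul_apply]
      have e1 : (wordP C p ⟨D.simple c, hs1⟩ : Fin D.nroots) = ⟨applyW D T p (D.simple c), applyW_lt C hp hs1⟩ := Fin.ext (wordP_apply C hp _)
      rw [e1]
      exact word_neg_of C C2 C3 hw (J := {s | J s}) (fun s hs hs' => h s hs hs') h1 h2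
    have h4 := invP_right_neg C C2 C3 hc hmem hneg
    have h5 := ih (p ++ [c]) hpc h3
    have e2 : wordP C (p ++ [c]) = wordP C p * wPn C c := by
      rw [wordP_append, wordP_cons, wordP_nil, mul_one]
    rw [e2, ← mul_assoc] at h5
    have e3 : p ++ c :: l = (p ++ [c]) ++ l := by simp
    rw [e3, List.length_cons]
    omega

end

end Cfsg.Agent.H04.Tf

namespace Cfsg.Agent.H04.Tf.TF4

/-- the fundamental orbits -/
def Js : ℕ → List ℕ
  | 0 => J0
  | _ => J1

theorem Js_lt : ∀ j, j < 2 → ∀ i ∈ Js j, i < chevF4.rank := by decide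

theorem steps0 : stepsOK chevF4 T U (fun i => i = 0 ∨ i = 3) [] J0 :=
  ⟨⟨by decide, Or.inl rfl⟩, by decide +kernel, by decide +kernel,
    ⟨by decide, Or.inr rfl⟩, by decide +kernel, by decide +kernel, trivial⟩

theorem steps1 : stepsOK chevF4 T U (fun i => i = 1 ∨ i = 2) [] J1 :=
  ⟨⟨by decide, Or.inl rfl⟩, by decide +kernel, by decide +kernel,
    ⟨by decide, Or.inr rfl⟩, by decide +kernel, by decide +kernel,
    ⟨by decide, Or.inl rfl⟩, by decide +kernel, by decide +kernel,
    ⟨by decide, Or.inr rfl⟩, by decide +kernel, by decide +kernel, trivial⟩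

theorem bar_simple : ∀ i, i < 4 → X.bar (chevF4.simple i) = chevF4.simple (3 - i) := by decide +kernel

section
variable {K : Type*} [Field K] [Fintype K] [CharP K 2] {m : ℕ}
variable (hK : Fintype.card K = 2 ^ (2 * m + 1))

include hK

lemma nJ_GS {j : ℕ} : nWordG checks K (Js j) ∈ GS K m := by
  cases j with
  | zero => exact nJ0_GS
  | succ j => exact nJ1_GS

lemma nJ_fix {j : ℕ} : (Sg K m).f (nWordG checks K (Js j)) = nWordG checks K (Js j) := (GS_le_Fx hK (nJ_GS hK)).2

/-- a subgroup containing `n_J` and the fixed points of the torus contains the fixed points of `N` -/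
theorem N_fix_ind (Z : Subgroup (GL chevF4.Idx K)) (hZ1 : ∀ j, j < 2 → nWordG checks K (Js j) ∈ Z)
    (hZ2 : chevF4.diagonalSubgroup K ⊓ SF.Fx (Sg K m) ≤ Z) {n : GL chevF4.Idx K} (hn : n ∈ chevF4.monomialSubgroup K) (hsn : (Sg K m).f n = n) : n ∈ Z := by
  have key : ∀ k, ∀ n ∈ chevF4.monomialSubgroup K, (Sg K m).f n = n → ∀ w ∈ WW checks, ∀ π π' e, NAct (F := K) checks n π π' e →
      (∀ s : Fin chevF4.nroots, ((w s : Fin chevF4.nroots) : ℕ) = π s) → invP w = k → n ∈ Z := by
    intro k
    induction k using Nat.strong_induction_on with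
    | _ k ih =>
      intro n hn hsn w hw π π' e ha hπ hk
      by_cases hall : ∀ (i : ℕ) (hi : i < chevF4.rank), chevF4.nroots / 2 ≤ ((w ⟨chevF4.simple i, checks.simple_lt i hi⟩ : Fin chevF4.nroots) : ℕ)
      · apply hZ2
        refine ⟨mem_H_of_pos checks checks2 checks3 hn ha ?_, N_le_group checks hn, hsn⟩
        intro t ht0 ht
        rw [← hπ ⟨t, ht⟩]
        obtain ⟨l, hl, el⟩ := exists_word checks hw
        have hl' : ∀ i ∈ l, i < chevF4.rank := hl
        rw [el, wordP_apply checks hl']
        apply word_pos_of checks checks2 checks3 (J := {i | i < chevF4.rank}) hl' _ (fun s hs => hs) ht0 ht (fun j hj hj' => absurd hj hj')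
        intro s hs
        have := hall s hs
        rwa [el, wordP_apply checks hl'] at this
      · push Not at hall
        obtain ⟨i, hi, hneg⟩ := hall
        have hcomm : ∀ s, s < chevF4.nroots → π (X.bar s) = X.bar (π s) := fun s hs =>
          perm_comm' checks checks2 checks3 (Sg K m) (sftS m) (N_le_group checks hn) ha (by rw [hsn, mul_inv_cancel]; exact one_mem _) hs
        have hneg1 : ∀ a (ha' : a < chevF4.rank), ((w ⟨chevF4.simple a, checks.simple_lt a ha'⟩ : Fin chevF4.nroots) : ℕ) < chevF4.nroots / 2 →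
            ((w ⟨chevF4.simple (3 - a), checks.simple_lt (3 - a) (by rw [show chevF4.rank = 4 from rfl] at ha' ⊢; omega)⟩ : Fin chevF4.nroots) : ℕ) < chevF4.nroots / 2 := by
          intro a ha' h1
          have ha4 : a < 4 := ha'
          rw [hπ] at h1 ⊢
          simp only at h1 ⊢
          rw [← bar_simple a ha4, hcomm _ (checks.simple_lt a ha')]
          by_contra h2
          have h3 := (SF.bar_pos_iff checks checks2 (Sg K m) (sftS m) (ha.lt _ (checks.simple_lt a ha'))).mp (not_lt.mp h2)
          omega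
        -- the step
        have main : ∀ (j : ℕ) (J : ℕ → Prop), j < 2 → (∀ s, J s → ∀ hs : s < chevF4.rank, ((w ⟨chevF4.simple s, checks.simple_lt s hs⟩ : Fin chevF4.nroots) : ℕ) < chevF4.nroots / 2) →
            stepsOK chevF4 T U J [] (Js j) → 0 < (Js j).length → n ∈ Z := by
          intro j J hj hJ hst hlen
          have hlt := Js_lt j hj
          have hinv := invP_steps checks checks2 checks3 hw hJ (Js j) [] (by simp) hst
          simp only [List.nil_append, wordP_nil, mul_one] at hinv
          obtain ⟨ρ', e', hN⟩ := NAct_word (F := K) checks hlt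
          have hlt2 : invP (w * wordP checks (Js j)) < k := by omega
          have hmem := ih _ hlt2 (n * nWordG checks K (Js j)) (mul_mem hn (nWordG_mem checks checks3 hlt))
            (by rw [(Sg K m).f_mul (N_le_group checks hn) (N_le_group checks (nWordG_mem checks checks3 hlt)), hsn, nJ_fix hK]) (w * wordP checks (Js j))
            (mul_mem hw (wordP_mem checks (J := {i | i < chevF4.rank}) hlt)) _ _ _ (ha.mul hN)
            (by
              intro s
              rw [Equiv.Perm.mul_apply, hπ, wordP_apply checks hlt]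
              rfl) rfl
          have e2 : n = (n * nWordG checks K (Js j)) * (nWordG checks K (Js j))⁻¹ := by group
          rw [e2]
          exact mul_mem hmem (inv_mem (hZ1 j hj))
        have hi4 : i < 4 := hi
        have hcases : i = 0 ∨ i = 3 ∨ i = 1 ∨ i = 2 := by omega
        rcases hcases with rfl | rfl | rfl | rfl
        · refine main 0 (fun i => i = 0 ∨ i = 3) (by decide) ?_ steps0 (by decide)
          rintro s (rfl | rfl) hs
          · exact hneg
          · exact hneg1 0 hi hneg
        · refine main 0 (fun i => i = 0 ∨ i = 3) (by decide) ?_ steps0 (by decide)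
          rintro s (rfl | rfl) hs
          · exact hneg1 3 hi hneg
          · exact hneg
        · refine main 1 (fun i => i = 1 ∨ i = 2) (by decide) ?_ steps1 (by decide)
          rintro s (rfl | rfl) hs
          · exact hneg
          · exact hneg1 1 hi hneg
        · refine main 1 (fun i => i = 1 ∨ i = 2) (by decide) ?_ steps1 (by decide)
          rintro s (rfl | rfl) hs
          · exact hneg1 2 hi hneg
          · exact hneg
  obtain ⟨w, hw, π, π', e, ha, hπ⟩ := monomial_le_NW checks checks3 hn
  exact key _ n hn hsn w hw π π' e ha hπ rfl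

/-- the group is the group of fixed points -/
theorem GS_eq : GS K m = SF.Fx (Sg K m) := by
  apply le_antisymm (GS_le_Fx hK)
  rintro g ⟨hg, hs⟩
  obtain ⟨u₁, h1, h2, n, h3, h4, π, π', e, ha, u₂, h5, h6, rfl⟩ := fix_bruhat' checks checks2 checks3 (Sg K m) (sftS m) hg hs
  have hle : chevF4.posUnipotent K ⊓ SF.Fx (Sg K m) ≤ GS K m := by
    rw [← U_inf hK]
    exact inf_le_right
  have hu2 := RS_le_B' checks checks2 (fun r hr => hr.1) h5
  refine mul_mem (mul_mem (hle ⟨h1, U_le_group checks h1, h2⟩) ?_) (hle ⟨hu2, U_le_group checks hu2, h6⟩)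
  exact N_fix_ind hK (GS K m) (fun j _ => nJ_GS hK) (H_fix_le hK) h3 h4

end

end Cfsg.Agent.H04.Tf.TF4
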