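import Cfsg.Agent.Lib.H04.Tf.Inst

/-!
# The fixed points in the unipotent subgroup for the groups `²F₄`
-/

set_option autoImplicit false
set_option linter.style.longLine false
set_option linter.unusedSimpArgs false
set_option linter.unusedSectionVars false
set_option linter.unusedVariables false
set_option maxRecDepth 100000

open Cfsg.Lie Cfsg.Agent.H04.Chev Cfsg.Agent.H04.Tw
open Cfsg.Agent.H04.Chev.TF4

namespace Cfsg.Agent.H04.Tf.TF4

theorem ap_J1_7 : (applyW chevF4 T J1 33, applyW chevF4 T J1 24) = (37, 32) := by decide +kernel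
theorem ap_J0_1 : (applyW chevF4 T J0 37, applyW chevF4 T J0 32) = (38, 43) := by decide +kernel
theorem ap_J1_5 : (applyW chevF4 T J1 38, applyW chevF4 T J1 43) = (39, 45) := by decide +kernel
theorem ap_J0_0 : (applyW chevF4 T J0 27, applyW chevF4 T J0 25, applyW chevF4 T J0 28, applyW chevF4 T J0 30) = (34, 26, 36, 42) := by decide +kernel
theorem ap_J1_6 : (applyW chevF4 T J1 34, applyW chevF4 T J1 26, applyW chevF4 T J1 36, applyW chevF4 T J1 42) = (35, 31, 40, 46) := by decide +kernel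
theorem ap_J0_2 : (applyW chevF4 T J0 35, applyW chevF4 T J0 31, applyW chevF4 T J0 40, applyW chevF4 T J0 46) = (29, 41, 44, 47) := by decide +kernel

section
variable {K : Type*} [Field K] [Fintype K] [CharP K 2] {m : ℕ}

lemma conjJ0 (s : ℕ) (hs : s < chevF4.nroots) (t : K) :
    nWordG checks K J0 * xG checks s t * (nWordG checks K J0)⁻¹ = xG checks (applyW chevF4 T J0 s) t := conj_word checks J0_lt hs t

lemma conjJ1 (s : ℕ) (hs : s < chevF4.nroots) (t : K) :
    nWordG checks K J1 * xG checks s t * (nWordG checks K J1)⁻¹ = xG checks (applyW chevF4 T J1 s) t := conj_word checks J1_lt hs t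

variable (m) in
/-- the group -/
abbrev GS (K : Type*) [Field K] (m : ℕ) : Subgroup (GL chevF4.Idx K) := twistedF4 K (2 ^ m)

/-- membership of the class elements in the group -/
lemma E7 (t : K) : Ep checks (th K m) 33 24 t ∈ GS K m := Ep_GS t
lemma E0 (t u : K) : Eq checks (th K m) (th' K m) 27 25 28 30 t u ∈ GS K m := Eq_GS t u

lemma E1 (t : K) : Ep checks (th K m) 37 32 t ∈ GS K m := by
  have h := conj_Ep checks conjJ1 (r := 33) (s := 24) (by decide) (by decide) (th K m) t
  rw [show applyW chevF4 T J1 33 = 37 from congrArg Prod.fst ap_J1_7, show applyW chevF4 T J1 24 = 32 from congrArg Prod.snd ap_J1_7] at h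
  rw [← h]
  exact mul_mem (mul_mem nJ1_GS (E7 t)) (inv_mem nJ1_GS)

lemma E5 (t : K) : Ep checks (th K m) 38 43 t ∈ GS K m := by
  have h := conj_Ep checks conjJ0 (r := 37) (s := 32) (by decide) (by decide) (th K m) t
  rw [show applyW chevF4 T J0 37 = 38 from congrArg Prod.fst ap_J0_1, show applyW chevF4 T J0 32 = 43 from congrArg Prod.snd ap_J0_1] at h
  rw [← h]
  exact mul_mem (mul_mem nJ0_GS (E1 t)) (inv_mem nJ0_GS)

lemma E3 (t : K) : Ep checks (th K m) 39 45 t ∈ GS K m := by
  have h := conj_Ep checks conjJ1 (r := 38) (s := 43) (by decide) (by decide) (th K m) t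
  rw [show applyW chevF4 T J1 38 = 39 from congrArg Prod.fst ap_J1_5, show applyW chevF4 T J1 43 = 45 from congrArg Prod.snd ap_J1_5] at h
  rw [← h]
  exact mul_mem (mul_mem nJ1_GS (E5 t)) (inv_mem nJ1_GS)

lemma E6 (t u : K) : Eq checks (th K m) (th' K m) 34 26 36 42 t u ∈ GS K m := by
  have h := conj_QP checks conjJ0 (a := 27) (b := 25) (c := 28) (d := 30) (by decide) (by decide) (by decide) (by decide) (th K m t) t (th K m t * t + u) (th' K m u)
  have e := ap_J0_0
  simp only [Prod.mk.injEq] at e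
  rw [e.1, e.2.1, e.2.2.1, e.2.2.2] at h
  show QP _ _ _ _ _ _ _ _ _ ∈ _
  rw [← h]
  exact mul_mem (mul_mem nJ0_GS (E0 t u)) (inv_mem nJ0_GS)

lemma E2 (t u : K) : Eq checks (th K m) (th' K m) 35 31 40 46 t u ∈ GS K m := by
  have h := conj_QP checks conjJ1 (a := 34) (b := 26) (c := 36) (d := 42) (by decide) (by decide) (by decide) (by decide) (th K m t) t (th K m t * t + u) (th' K m u)
  have e := ap_J1_6
  simp only [Prod.mk.injEq] at e
  rw [e.1, e.2.1, e.2.2.1, e.2.2.2] at h
  show QP _ _ _ _ _ _ _ _ _ ∈ _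
  rw [← h]
  exact mul_mem (mul_mem nJ1_GS (E6 t u)) (inv_mem nJ1_GS)

lemma E4 (t u : K) : Eq checks (th K m) (th' K m) 29 41 44 47 t u ∈ GS K m := by
  have h := conj_QP checks conjJ0 (a := 35) (b := 31) (c := 40) (d := 46) (by decide) (by decide) (by decide) (by decide) (th K m t) t (th K m t * t + u) (th' K m u)
  have e := ap_J0_2
  simp only [Prod.mk.injEq] at e
  rw [e.1, e.2.1, e.2.2.1, e.2.2.2] at h
  show QP _ _ _ _ _ _ _ _ _ ∈ _
  rw [← h]
  exact mul_mem (mul_mem nJ0_GS (E2 t u)) (inv_mem nJ0_GS)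

variable (hK : Fintype.card K = 2 ^ (2 * m + 1))
include hK

theorem GS_le_Fx : GS K m ≤ SF.Fx (Sg K m) := by
  unfold GS twistedF4 Cfsg.Lie.ChevalleyDatum.genSubgroup
  rw [Subgroup.closure_le]
  rintro g ⟨w, hw, hg⟩
  have e : g = wordG checks w := Units.ext (by rw [hg, wordG_val])
  subst e
  rcases hw with ⟨t, rfl | rfl⟩ | ⟨t, u, rfl | rfl⟩
  · rw [word_pair]
    exact (PairH_of pt7).Ep_Fx (th'_th hK) t
  · rw [word_pair]
    exact (PairH_of ptm).Ep_Fx (th'_th hK) t
  · rw [word_quad]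
    exact (QuadH_of qt0).Eq_Fx (th'_th hK) (th_th' hK) (th_sq m) t u
  · rw [word_quad]
    exact (QuadH_of qtm).Eq_Fx (th'_th hK) (th_th' hK) (th_sq m) t u

omit hK in
lemma FF_top : FF checks (Sg K m) lvl 24 = ⊥ := by
  unfold FF
  rw [Uc_top checks clw, bot_inf_eq]

theorem F22 : FF checks (Sg K m) lvl 22 ≤ GS K m := by
  intro g hg
  obtain ⟨t, g', hg', rfl⟩ := pair_step checks checks2 checks3 clw (sftS m) (i := 22) (by decide) (PairH_of pt7) rfl rfl (ucs (by decide)) hg
  have e : g' = 1 := by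
    have : g' ∈ FF checks (Sg K m) lvl 24 := hg'
    rw [FF_top] at this
    exact this
  rw [e, mul_one]
  exact E7 t

theorem F18 : FF checks (Sg K m) lvl 18 ≤ GS K m := by
  intro g hg
  obtain ⟨t, u, g', hg', rfl⟩ := quad_step checks checks2 checks3 clw (sftS m) (i := 18) (by decide) (QuadH_of qt6) rfl rfl rfl rfl (ucs (by decide)) (th'_th hK) (th_th' hK) hg
  exact mul_mem (E6 t u) (F22 hK hg')

theorem F16 : FF checks (Sg K m) lvl 16 ≤ GS K m := by
  intro g hg
  obtain ⟨t, g', hg', rfl⟩ := pair_step checks checks2 checks3 clw (sftS m) (i := 16) (by decide) (PairH_of pt5) rfl rfl (ucs (by decide)) hg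
  exact mul_mem (E5 t) (F18 hK hg')

theorem F12 : FF checks (Sg K m) lvl 12 ≤ GS K m := by
  intro g hg
  obtain ⟨t, u, g', hg', rfl⟩ := quad_step checks checks2 checks3 clw (sftS m) (i := 12) (by decide) (QuadH_of qt4) rfl rfl rfl rfl (ucs (by decide)) (th'_th hK) (th_th' hK) hg
  exact mul_mem (E4 t u) (F16 hK hg')

theorem F10 : FF checks (Sg K m) lvl 10 ≤ GS K m := by
  intro g hg
  obtain ⟨t, g', hg', rfl⟩ := pair_step checks checks2 checks3 clw (sftS m) (i := 10) (by decide) (PairH_of pt3) rfl rfl (ucs (by decide)) hg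
  exact mul_mem (E3 t) (F12 hK hg')

theorem F6 : FF checks (Sg K m) lvl 6 ≤ GS K m := by
  intro g hg
  obtain ⟨t, u, g', hg', rfl⟩ := quad_step checks checks2 checks3 clw (sftS m) (i := 6) (by decide) (QuadH_of qt2) rfl rfl rfl rfl (ucs (by decide)) (th'_th hK) (th_th' hK) hg
  exact mul_mem (E2 t u) (F10 hK hg')

theorem F4 : FF checks (Sg K m) lvl 4 ≤ GS K m := by
  intro g hg
  obtain ⟨t, g', hg', rfl⟩ := pair_step checks checks2 checks3 clw (sftS m) (i := 4) (by decide) (PairH_of pt1) rfl rfl (ucs (by decide)) hg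
  exact mul_mem (E1 t) (F6 hK hg')

theorem F0 : FF checks (Sg K m) lvl 0 ≤ GS K m := by
  intro g hg
  obtain ⟨t, u, g', hg', rfl⟩ := quad_step checks checks2 checks3 clw (sftS m) (i := 0) (by decide) (QuadH_of qt0) rfl rfl rfl rfl (ucs (by decide)) (th'_th hK) (th_th' hK) hg
  exact mul_mem (E0 t u) (F4 hK hg')

omit hK in
lemma FF0_eq : FF checks (Sg K m) lvl 0 = chevF4.posUnipotent K ⊓ SF.Fx (Sg K m) := by
  unfold FF
  rw [Uc_zero checks checks2]

theorem U_inf : chevF4.posUnipotent K ⊓ GS K m = chevF4.posUnipotent K ⊓ SF.Fx (Sg K m) := by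
  apply le_antisymm
  · exact inf_le_inf_left _ (GS_le_Fx hK)
  · refine le_inf inf_le_left ?_
    rw [← FF0_eq]
    exact F0 hK

theorem card_FF0 : Nat.card (FF checks (Sg K m) lvl 0) = Fintype.card K ^ 12 := by
  have h24 : Nat.card (FF checks (Sg K m) lvl 24) = 1 := by
    rw [FF_top]
    exact Nat.card_unique
  have h22 := card_pair checks checks2 checks3 clw (sftS (K := K) m) (i := 22) (by decide) (PairH_of pt7) rfl rfl (ucs (by decide)) (th'_th hK)
  have h18 := card_quad checks checks2 checks3 clw (sftS (K := K) m) (i := 18) (by decide) (QuadH_of qt6) rfl rfl rfl rfl (ucs (by decide)) (th'_th hK) (th_th' hK) (th_sq m)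
  have h16 := card_pair checks checks2 checks3 clw (sftS (K := K) m) (i := 16) (by decide) (PairH_of pt5) rfl rfl (ucs (by decide)) (th'_th hK)
  have h12 := card_quad checks checks2 checks3 clw (sftS (K := K) m) (i := 12) (by decide) (QuadH_of qt4) rfl rfl rfl rfl (ucs (by decide)) (th'_th hK) (th_th' hK) (th_sq m)
  have h10 := card_pair checks checks2 checks3 clw (sftS (K := K) m) (i := 10) (by decide) (PairH_of pt3) rfl rfl (ucs (by decide)) (th'_th hK)
  have h6 := card_quad checks checks2 checks3 clw (sftS (K := K) m) (i := 6) (by decide) (QuadH_of qt2) rfl rfl rfl rfl (ucs (by decide)) (th'_th hK) (th_th' hK) (th_sq m)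
  have h4 := card_pair checks checks2 checks3 clw (sftS (K := K) m) (i := 4) (by decide) (PairH_of pt1) rfl rfl (ucs (by decide)) (th'_th hK)
  have h0 := card_quad checks checks2 checks3 clw (sftS (K := K) m) (i := 0) (by decide) (QuadH_of qt0) rfl rfl rfl rfl (ucs (by decide)) (th'_th hK) (th_th' hK) (th_sq m)
  simp only [zero_add] at h0
  rw [h0, show (4 : ℕ) = 4 from rfl, h4, show (4 + 2 : ℕ) = 6 from rfl, h6, show (6 + 4 : ℕ) = 10 from rfl, h10, show (10 + 2 : ℕ) = 12 from rfl, h12,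
    show (12 + 4 : ℕ) = 16 from rfl, h16, show (16 + 2 : ℕ) = 18 from rfl, h18, show (18 + 4 : ℕ) = 22 from rfl, h22, show (22 + 2 : ℕ) = 24 from rfl, h24]
  ring

theorem card_U : Nat.card ↥(chevF4.posUnipotent K ⊓ GS K m) = Fintype.card K ^ 12 := by
  rw [U_inf hK, ← FF0_eq]
  exact card_FF0 hK

end

end Cfsg.Agent.H04.Tf.TF4
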